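import Mathlib

/-! Isomorphism of two `2`-groups given by generators satisfying a common polycyclic presentation. -/

set_option autoImplicit false

namespace Cfsg.Agent.Gl23.Dg

open Subgroup

variable {ι α β G G' : Type*} [Group G] [Group G']

/-- the normal forms -/
def nf (f : ι → α → α) : List ι → α → List α
  | [], x => [x]
  | i :: l, x => nf f l x ++ (nf f l x).map (f i)

theorem nf_length (f : ι → α → α) (x : α) : ∀ l : List ι, (nf f l x).length = 2 ^ l.length
  | [] => rfl
  | i :: l => by simp [nf, nf_length f x l, pow_succ, mul_two]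

theorem nf_map {f : ι → α → α} {g : ι → β → β} (h : α → β) (hf : ∀ i x, h (f i x) = g i (h x))
    (x : α) : ∀ l : List ι, (nf f l x).map h = nf g l (h x)
  | [] => rfl
  | i :: l => by
    simp only [nf, List.map_append, ← nf_map h hf x l, List.map_map]
    congr 2
    exact funext (hf i)

theorem nf_mem (a : ι → G) : ∀ l : List ι, ∀ x ∈ nf (fun i x => a i * x) l 1,
    x ∈ closure (a '' {i | i ∈ l})
  | [], x, hx => by rw [List.mem_singleton.1 hx]; exact one_mem _
  | i :: l, x, hx => by
    have h : closure (a '' {j | j ∈ l}) ≤ closure (a '' {j | j ∈ i :: l}) :=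
      closure_mono (Set.image_mono fun _ => List.mem_cons_of_mem _)
    rcases List.mem_append.1 hx with hx | hx
    · exact h (nf_mem a l x hx)
    · obtain ⟨y, hy, rfl⟩ := List.mem_map.1 hx
      exact mul_mem (subset_closure ⟨i, List.mem_cons_self, rfl⟩) (h (nf_mem a l y hy))

theorem lb [Finite G'] (π : G →* G') (a : ι → G) (h : G → α) (f : ι → α → α)
    (hf : ∀ i g, h (a i * g) = f i (h g)) (hπ : ∀ x y, π x = π y → h x = h y) (l : List ι)
    (hn : (nf f l (h 1)).Nodup) :
    2 ^ l.length ≤ Nat.card (closure ((fun i => π (a i)) '' {i | i ∈ l})) := by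
  classical
  rw [← nf_map (f := fun i x => a i * x) h hf] at hn
  have h1 : (nf (fun i x => π (a i) * x) l 1).Nodup := by
    rw [← map_one π, ← nf_map (f := fun i x => a i * x) π fun i x => map_mul π _ _]
    exact List.pairwise_map.2 ((List.pairwise_map.1 hn).imp fun e e' => e (hπ _ _ e'))
  rw [← nf_length (fun i x => π (a i) * x) 1, ← List.toFinset_card_of_nodup h1,
    ← Set.ncard_coe_finset]
  exact Set.ncard_le_ncard fun x hx => nf_mem (fun i => π (a i)) l x (by simpa using hx)

/-- the check of the relations -/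
def good (E : List ι → List ι → Bool) : List ι → Bool
  | [] => true
  | i :: l => good E l && E [i, i] [] &&
    l.all fun j => l.any fun k => E [i, j] [k, i] || l.any fun m => E [i, j] [k, m, i]

theorem ub [Finite G] (a : ι → G) {E : List ι → List ι → Bool}
    (hE : ∀ u v, E u v = true → (u.map a).prod = (v.map a).prod) :
    ∀ l, good E l = true → Nat.card (closure (a '' {i | i ∈ l})) ≤ 2 ^ l.length
  | [], _ => by simp
  | i :: l, h => by
    simp only [good, Bool.and_eq_true, List.all_eq_true, List.any_eq_true, Bool.or_eq_true] at h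
    obtain ⟨⟨h1, h2⟩, h3⟩ := h
    have ih := ub a hE l h1
    set K := closure (a '' {j | j ∈ l})
    have h4 : a i * a i = 1 := by simpa using hE _ _ h2
    have hs : ∀ j ∈ l, a j ∈ K := fun j hj => subset_closure ⟨j, hj, rfl⟩
    have h5 : ∀ x ∈ K, a i * x * (a i)⁻¹ ∈ K := fun x hx => by
      have : K.map (MulAut.conj (a i)).toMonoidHom ≤ K := by
        rw [MonoidHom.map_closure, closure_le]
        rintro _ ⟨_, ⟨j, hj, rfl⟩, rfl⟩
        show a i * a j * (a i)⁻¹ ∈ K
        obtain ⟨k, hk, e | ⟨m, hm, e⟩⟩ := h3 j hj <;> have := hE _ _ e <;>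
          simp only [List.map_cons, List.map_nil, List.prod_cons, List.prod_nil, mul_one,
            ← mul_assoc] at this <;> rw [this, mul_inv_cancel_right]
        exacts [hs k hk, mul_mem (hs k hk) (hs m hm)]
      exact this ⟨x, hx, rfl⟩
    have h6 : ∀ x ∈ closure (a '' {j | j ∈ i :: l}), x ∈ K ∨ a i * x ∈ K := fun x hx => by
      refine closure_induction_left (Or.inl (one_mem _)) (fun y hy x _ hx => ?_)
        (fun y hy x _ hx => ?_) hx <;> obtain ⟨j, hj, rfl⟩ := hy <;>
        rcases List.mem_cons.1 hj with rfl | hj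
      · rw [← mul_assoc, h4, one_mul]; exact hx.symm
      · refine hx.imp (mul_mem (hs j hj)) fun hx => ?_
        simpa [mul_assoc] using mul_mem (h5 _ (hs j hj)) hx
      · rw [mul_inv_cancel_left, inv_eq_of_mul_eq_one_right h4]; exact hx.symm
      · refine hx.imp (mul_mem (inv_mem (hs j hj))) fun hx => ?_
        simpa [mul_assoc] using mul_mem (h5 _ (inv_mem (hs j hj))) hx
    calc _ ≤ ((K : Set G) ∪ (fun x => (a i)⁻¹ * x) '' K).ncard :=
          Set.ncard_le_ncard fun x hx => (h6 x hx).imp id fun h => ⟨_, h, by simp⟩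
      _ ≤ (K : Set G).ncard + (K : Set G).ncard :=
          (Set.ncard_union_le _ _).trans (Nat.add_le_add_left (Set.ncard_image_le (Set.toFinite _)) _)
      _ ≤ _ := by
          rw [List.length_cons, pow_succ, mul_two]
          exact Nat.add_le_add ih ih

theorem syl_aux [Finite G] [Finite G'] {D : Subgroup G} {n : ℕ} (h3 : Nat.card D ≤ 2 ^ n)
    (φ : G →* G') (h : 2 ^ n ≤ Nat.card (D.map φ)) (c : (Nat.card G').factorization 2 = n)
    (P : Sylow 2 G') : Nonempty (D ≃* P) := by
  have h4 := Nat.card_le_card_of_surjective _ (φ.subgroupMap_surjective D)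
  exact ⟨(MulEquiv.ofBijective (φ.subgroupMap D) ((Nat.bijective_iff_surjective_and_card _).2
    ⟨φ.subgroupMap_surjective D, by omega⟩)).trans
    ((Sylow.ofCard (D.map φ) (by rw [c]; omega)).equiv P)⟩

theorem syl_iso [Finite G] [Finite G'] (a : ι → G) (b : ι → G') {E : List ι → List ι → Bool}
    (hE : ∀ u v, E u v = true → (u.map a).prod = (v.map a).prod ∧ (u.map b).prod = (v.map b).prod)
    (l : List ι) (hg : good E l = true)
    (h1 : 2 ^ l.length ≤ Nat.card (closure (a '' {i | i ∈ l})))
    (h2 : 2 ^ l.length ≤ Nat.card (closure (b '' {i | i ∈ l})))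
    (c1 : (Nat.card G).factorization 2 = l.length) (c2 : (Nat.card G').factorization 2 = l.length)
    (P : Sylow 2 G) (Q : Sylow 2 G') : Nonempty (P ≃* Q) := by
  have h0 : ∀ u : List ι, (u.map fun i => (a i, b i)).prod = ((u.map a).prod, (u.map b).prod) :=
    fun u => by induction u <;> simp_all [Prod.ext_iff]
  have h3 := ub (fun i => (a i, b i))
    (fun u v e => by rw [h0, h0, (hE u v e).1, (hE u v e).2]) l hg
  obtain ⟨e1⟩ := syl_aux h3 (MonoidHom.fst G G')
    (by rwa [MonoidHom.map_closure, Set.image_image]) c1 P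
  obtain ⟨e2⟩ := syl_aux h3 (MonoidHom.snd G G')
    (by rwa [MonoidHom.map_closure, Set.image_image]) c2 Q
  exact ⟨e1.symm.trans e2⟩

end Cfsg.Agent.Gl23.Dg
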