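import Mathlib
import Cfsg.Prelude.Def_Classical
import Cfsg.Agent.Gl23.Dg
import Cfsg.Agent.S0245
import Cfsg.Agent.S0246
import Cfsg.Agent.S0288

/-! Sylow `2`-subgroups of `A₈`, `PSp₄(3)`, `S₈`, `O₆⁻(2)`. -/

set_option autoImplicit false

namespace Cfsg.Agent.Gl23.Dg

open Cfsg Subgroup Matrix

theorem prod_eq {ι G M : Type*} [Monoid G] [Monoid M] (φ : G →* M) (a : ι → G) (u : List ι) :
    φ (u.map a).prod = (u.map fun i => φ (a i)).prod := by
  rw [map_list_prod, List.map_map]; rfl

/-- table look-up -/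
def gt (w t n : ℕ) : ℕ := (t >>> (w * n)) % 2 ^ w

/-! ### `S₈` and `O₆⁻(2)` -/

def pA (i : Fin 7) : Equiv.Perm (Fin 8) := Function.Involutive.toPerm
  (![![4, 5, 6, 7, 0, 1, 2, 3], ![2, 3, 0, 1, 4, 5, 6, 7], ![0, 1, 2, 3, 6, 7, 4, 5],
    ![1, 0, 2, 3, 4, 5, 6, 7], ![0, 1, 3, 2, 4, 5, 6, 7], ![0, 1, 2, 3, 5, 4, 6, 7],
    ![0, 1, 2, 3, 4, 5, 7, 6]] i) (by revert i; unfold Function.Involutive; decide +kernel)

abbrev I6 := (Fin 2 ⊕ Fin 2) ⊕ Fin 2

def ix6 : I6 → ℕ := Sum.elim (Sum.elim (fun i => i) fun i => 2 + i) fun i => 4 + i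

def mA (k : Fin 7) : Matrix I6 I6 (ZMod 2) := of fun i j =>
  (gt 1 (![43220223617, 34631336067, 38926303643, 35301378689, 35368487853, 35167158401,
    35234267301] k) (6 * ix6 i + ix6 j) : ℕ)

def encA (v : I6 → ZMod 2) : ℕ := ∑ i, (v i).val * 2 ^ ix6 i

def tA : Fin 7 → ℕ := ![19378361324102365331525964640313050787961554829315696591682441159650036985924420836155083636780766359720725861638208, 33782612944624662994731229892452521961754874815941522760357287869498693116384393573837062493716171791632237278539840, 12518650060506198435542408263027502147585447116527631427062864306745207609542993170668244013587969906883858772013120, 39392078757191517959441881304072251513477719116401978258831611134945365720937270754304443741778638445628863147679808, 27528789318580200441511354988497657400190663582957602591913087464304445369706903499770737341080602715728908840083520, 29385220040646928311500619475290425927850379972578224426652711507095133854731481464451400897991566809895909899116608, 39392078124604912190285994841236968240581689595339557771220789920111062478033345046438663359020798783447513256697920]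

theorem mA_sq : ∀ k, mA k * mA k = 1 := by decide +kernel

theorem mA_spec : ∀ k v, quadFormMinus 2 (ZMod 2) 1 1 (mA k *ᵥ v) = quadFormMinus 2 (ZMod 2) 1 1 v ∧
    encA (mA k *ᵥ v) = gt 6 (tA k) (encA v) := by decide +kernel

def gA (k : Fin 7) : isometryGroup (ZMod 2) (quadFormMinus 2 (ZMod 2) 1 1) :=
  ⟨⟨mA k, mA k, mA_sq k, mA_sq k⟩, fun u _ => (mA_spec k u).1⟩

def EA (u v : List (Fin 7)) : Bool :=
  decide ((u.map pA).prod = (v.map pA).prod) && decide ((u.map mA).prod = (v.map mA).prod)

theorem goodA : good EA [0, 1, 2, 3, 4, 5, 6] = true := by decide +kernel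

theorem part2 (K : Type) [Field K] [Fintype K] (hK : Fintype.card K = 2) (a b : K)
    (hab : ∀ z₁ z₂ : K, z₁ ^ 2 + a * z₁ * z₂ + b * z₂ ^ 2 = 0 → z₁ = 0 ∧ z₂ = 0)
    (P : Sylow 2 (Equiv.Perm (Fin 8))) (Q : Sylow 2 (isometryGroup K (quadFormMinus 2 K a b))) :
    Nonempty (P ≃* Q) := by
  have hc := S0288.result hK 3 (by norm_num) a b hab
  let e := ZMod.ringEquivOfPrime K Nat.prime_two hK
  obtain ⟨a, rfl⟩ := e.surjective a
  obtain ⟨b, rfl⟩ := e.surjective b
  have h0 : ∀ z₁ z₂ : ZMod 2, z₁ ^ 2 + a * z₁ * z₂ + b * z₂ ^ 2 = 0 → z₁ = 0 ∧ z₂ = 0 :=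
    fun x y h => by simpa using hab (e x) (e y) (by
      rw [← map_pow, ← map_pow, ← map_mul, ← map_mul, ← map_mul, ← map_add, ← map_add, h, map_zero])
  obtain ⟨rfl, rfl⟩ := (by decide : ∀ a b : ZMod 2,
    (∀ z₁ z₂, z₁ ^ 2 + a * z₁ * z₂ + b * z₂ ^ 2 = 0 → z₁ = 0 ∧ z₂ = 0) → a = 1 ∧ b = 1) a b h0
  let π : isometryGroup (ZMod 2) (quadFormMinus 2 (ZMod 2) 1 1) →*
      isometryGroup K (quadFormMinus 2 K (e 1) (e 1)) :=
    ((GeneralLinearGroup.map e.toRingHom).comp (Subgroup.subtype _)).codRestrict _ fun g u _ => by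
      obtain ⟨u, rfl⟩ := e.surjective.comp_left u
      have h1 : ∀ w, quadFormMinus 2 K (e 1) (e 1) (e ∘ w) = e (quadFormMinus 2 (ZMod 2) 1 1 w) :=
        fun w => by simp only [quadFormMinus, map_add, map_mul, map_pow, map_sum, Function.comp_apply]
      have h2 := congrArg e (g.2 u u)
      rw [← h1, ← h1] at h2
      refine Eq.trans (congrArg _ (funext fun i => ?_)) h2
      exact (e.toRingHom.map_mulVec g.1.1 u i).symm
  refine syl_iso pA (fun k => π (gA k)) (E := EA) (fun u v h => ?_) _ goodA
    (lb (MonoidHom.id _) pA (fun g => [0, 2, 4, 6].map g) (fun i => List.map (pA i))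
      (fun i g => by simp) (fun x y h => by rw [show x = y from h]) _ (by decide +kernel))
    (lb π gA (fun g => [.inl (.inr 0), .inl (.inr 1), .inr 1].map fun j => encA (g.1.1 *ᵥ Pi.single j 1))
      (fun i => List.map (gt 6 (tA i))) (fun i g => ?_) (fun x y h => ?_) _ (by decide +kernel))
    ?_ ?_ P Q
  · simp only [EA, Bool.and_eq_true, decide_eq_true_eq] at h
    refine ⟨h.1, ?_⟩
    rw [← prod_eq, ← prod_eq]
    refine congrArg π (Subtype.ext (Units.ext ?_))
    exact (prod_eq ((Units.coeHom _).comp (Subgroup.subtype _)) gA u).trans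
      (h.2.trans (prod_eq ((Units.coeHom _).comp (Subgroup.subtype _)) gA v).symm)
  · rw [List.map_map]
    refine List.map_congr_left fun j _ => ?_
    rw [Function.comp_apply, ← (mA_spec _ _).2, mulVec_mulVec]; rfl
  · rw [show x = y from Subtype.ext (Units.ext (Matrix.ext fun i j => e.injective
      (congrFun₂ (congrArg (fun t => t.1.1) h) i j)))]
  · rw [Nat.card_perm, Nat.card_fin, show Nat.factorial 8 = 2 ^ 7 * 315 by decide,
      Nat.factorization_mul_apply_of_coprime (by norm_num), Nat.Prime.factorization_pow Nat.prime_two,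
      Nat.factorization_eq_zero_of_not_dvd (by norm_num)]
    simp
  · rw [show Nat.card (isometryGroup K (quadFormMinus 2 K (e 1) (e 1))) = 2 ^ 7 * 405 from
      hc.trans (by decide),
      Nat.factorization_mul_apply_of_coprime (by norm_num), Nat.Prime.factorization_pow Nat.prime_two,
      Nat.factorization_eq_zero_of_not_dvd (by norm_num)]
    simp

/-! ### `A₈` and `PSp₄(3)` -/

def pB (i : Fin 6) : Equiv.Perm (Fin 8) := Function.Involutive.toPerm
  (![![4, 5, 6, 7, 0, 1, 2, 3], ![2, 3, 0, 1, 4, 5, 6, 7], ![0, 1, 2, 3, 6, 7, 4, 5],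
    ![1, 0, 2, 3, 5, 4, 6, 7], ![1, 0, 3, 2, 4, 5, 6, 7], ![0, 1, 2, 3, 5, 4, 7, 6]] i)
    (by revert i; unfold Function.Involutive; decide +kernel)

def aB (i : Fin 6) : alternatingGroup (Fin 8) :=
  ⟨pB i, Equiv.Perm.mem_alternatingGroup.2 (by revert i; decide +kernel)⟩

def ix4 : Fin 2 ⊕ Fin 2 → ℕ := Sum.elim (fun i => i) fun i => 2 + i

def mB (k : Fin 6) : Matrix (Fin 2 ⊕ Fin 2) (Fin 2 ⊕ Fin 2) (ZMod 3) := of fun i j =>
  (gt 2 (![2214741008, 272630020, 294130308, 2283897873, 67272720, 134365200] k)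
    (4 * ix4 i + ix4 j) : ℕ)

def encB (v : Fin 2 ⊕ Fin 2 → ZMod 3) : ℕ :=
  min (∑ i, (v i).val * 3 ^ ix4 i) (∑ i, (-v i).val * 3 ^ ix4 i)

def tB : Fin 6 → ℕ := ![184547634673926374260930582734353842863106402053456948059896280658125119853137352211783001372897911575524115743872, 237648552446453244024536754768823082573125671965149602690147276512592382140199376032429294242871865323887089680768, 134834609549947758165680934120788499758979510178873638686690557773660617472316837220986582521554809299203025539200, 19807086037092897156980008469170283636882301823457770216122021960824872151510068962795935401209700925906450646272, 237193214990512232820548968769241133882953911517802517219162659307512925181800033483264783809981237572604482552960, 199090771864078518577709767554987930748393932797446357206343750831881250147503566335593610795071213986092691752064]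

theorem mB_spec : ∀ k v, encB (mB k *ᵥ v) = gt 7 (tB k) (encB v) := by decide +kernel

def gB (k : Fin 6) : symplecticGroup (Fin 2) (ZMod 3) :=
  ⟨mB k, SymplecticGroup.mem_iff.2 (by revert k; decide +kernel)⟩

def EB (u v : List (Fin 6)) : Bool :=
  decide ((u.map pB).prod = (v.map pB).prod) &&
    (decide ((u.map mB).prod = (v.map mB).prod) || decide ((u.map mB).prod = -(v.map mB).prod))

theorem goodB : good EB [0, 1, 2, 3, 4, 5] = true := by decide +kernel

theorem part1 (F : Type) [Field F] [Fintype F] (hF : Fintype.card F = 3)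
    (P : Sylow 2 (alternatingGroup (Fin 8))) (Q : Sylow 2 (PSp 2 F)) : Nonempty (P ≃* Q) := by
  let e := ZMod.ringEquivOfPrime F Nat.prime_three hF
  let σ : symplecticGroup (Fin 2) (ZMod 3) →* symplecticGroup (Fin 2) F :=
    (e.toRingHom.mapMatrix.toMonoidHom.comp (Submonoid.subtype _)).codRestrict _ fun g =>
      SymplecticGroup.map_mem g.2 e
  let π := (QuotientGroup.mk' (center (symplecticGroup (Fin 2) F))).comp σ
  have hπ : ∀ x y, π x = π y ↔ x.1 = y.1 ∨ x.1 = -y.1 := fun x y => by
    have h1 : ∀ A B : Matrix (Fin 2 ⊕ Fin 2) (Fin 2 ⊕ Fin 2) (ZMod 3), A.map e = B.map e ↔ A = B :=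
      fun A B => (Matrix.map_injective e.injective).eq_iff
    rw [eq_comm, ← h1, ← h1, Matrix.map_neg _ (map_neg e)]
    refine QuotientGroup.eq.trans (Classical.SpMat.mem_center_iff.trans (or_congr ?_ ?_))
    · rw [inv_mul_eq_one, eq_comm]; exact Subtype.ext_iff
    · rw [inv_mul_eq_iff_eq_mul, Subtype.ext_iff]
      show x.1.map e = y.1.map e * -1 ↔ _
      rw [mul_neg, mul_one]
  refine syl_iso aB (fun k => π (gB k)) (E := EB) (fun u v h => ?_) _ goodB
    (lb (MonoidHom.id _) aB (fun g => [0, 2, 4, 6].map g.1) (fun i => List.map (pB i))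
      (fun i g => by simp [aB]) (fun x y h => by rw [show x = y from h]) _ (by decide +kernel))
    (lb π gB (fun g => [Sum.elim ![0, 0] ![0, 1], Sum.elim ![0, 0] ![1, 1]].map fun v => encB (g.1 *ᵥ v))
      (fun i => List.map (gt 7 (tB i))) (fun i g => ?_) (fun x y h => ?_) _ (by decide +kernel))
    ?_ ?_ P Q
  · simp only [EB, Bool.and_eq_true, Bool.or_eq_true, decide_eq_true_eq] at h
    refine ⟨Subtype.ext ((prod_eq (Subgroup.subtype _) aB u).trans
      (h.1.trans (prod_eq (Subgroup.subtype _) aB v).symm)), ?_⟩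
    rw [← prod_eq, ← prod_eq, hπ]
    rw [show (u.map gB).prod.1 = _ from prod_eq (Submonoid.subtype _) gB u,
      show (v.map gB).prod.1 = _ from prod_eq (Submonoid.subtype _) gB v]
    exact h.2
  · rw [List.map_map]
    refine List.map_congr_left fun j _ => ?_
    rw [Function.comp_apply, ← mB_spec, mulVec_mulVec]; rfl
  · rcases (hπ _ _).1 h with h | h <;> rw [h]
    refine List.map_congr_left fun v _ => ?_
    rw [neg_mulVec, encB, min_comm]
    simp only [Pi.neg_apply, neg_neg, encB]
  · have := two_mul_nat_card_alternatingGroup (α := Fin 8)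
    rw [Nat.card_perm, Nat.card_fin, show Nat.factorial 8 = 2 * (2 ^ 6 * 315) by decide] at this
    rw [Nat.eq_of_mul_eq_mul_left two_pos this,
      Nat.factorization_mul_apply_of_coprime (by norm_num), Nat.Prime.factorization_pow Nat.prime_two,
      Nat.factorization_eq_zero_of_not_dvd (by norm_num)]
    simp
  · have := card_eq_card_quotient_mul_card_subgroup (center (symplecticGroup (Fin 2) F))
    rw [S0245.result hF, S0246.result hF 2 (by norm_num)] at this
    rw [show Nat.card (PSp 2 F) = 2 ^ 6 * 405 from Nat.eq_of_mul_eq_mul_right two_pos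
      (this.symm.trans (by decide)),
      Nat.factorization_mul_apply_of_coprime (by norm_num), Nat.Prime.factorization_pow Nat.prime_two,
      Nat.factorization_eq_zero_of_not_dvd (by norm_num)]
    simp

end Cfsg.Agent.Gl23.Dg
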