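import Mathlib
import Cfsg.Agent.Inv.U64

/-!
Groups of order 320 whose derived subgroup has order 64 and centre a four-group.
-/

set_option autoImplicit false
set_option linter.unusedSimpArgs false

namespace Cfsg.Agent.Gl23.HB

open Subgroup Cfsg.Agent.Inv

variable {T : Type*} [Group T]

/-- conjugation -/
def cj (g x : T) : T := g * x * g⁻¹

theorem cj_mul (g x y : T) : cj g (x * y) = cj g x * cj g y := by simp [cj, mul_assoc]

theorem cj_fix {g b : T} (h : Commute b g) : cj g b = b := by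
  rw [cj, ← h.eq, mul_inv_cancel_right]

theorem cj5 {g : T} (h : g ^ 5 = 1) (x : T) : cj g (cj g (cj g (cj g (cj g x)))) = x := by
  have : cj g (cj g (cj g (cj g (cj g x)))) = g ^ 5 * x * (g ^ 5)⁻¹ := by
    simp only [cj, pow_succ, pow_zero, one_mul, mul_inv_rev, mul_assoc]
  rw [this, h]; simp

/-- the defining relations -/
structure R5 (x g b c : T) : Prop where
  g5 : g ^ 5 = 1
  pr : x * cj g x * cj g (cj g x) * cj g (cj g (cj g x)) * cj g (cj g (cj g (cj g x))) = 1
  k1 : x * cj g x = cj g x * x * b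
  k2 : x * cj g (cj g x) = cj g (cj g x) * x * c
  bx : Commute b x
  bg : Commute b g
  cx : Commute c x
  cg : Commute c g
  bb : b * b = 1
  cc : c * c = 1
  ag : Commute (x * x) g
  aa : x * x * (x * x) = 1

theorem flp {x y k : T} (h : x * y = y * x * k) (hk : k * k = 1) : y * x = x * y * k := by
  rw [h, mul_assoc, hk, mul_one]

theorem asc {x y k : T} (h : y * x = x * y * k) (z : T) : y * (x * z) = x * (y * (k * z)) := by
  rw [← mul_assoc, h]; simp only [mul_assoc]

theorem asc2 {x k : T} (h : x * x = k) (z : T) : x * (x * z) = k * z := by rw [← mul_assoc, h]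

theorem calc5 {x0 x1 x2 x3 x4 a b c : T} (ha : ∀ z, Commute a z) (hb : ∀ z, Commute b z)
    (hc : ∀ z, Commute c z) (bb : b * b = 1) (cc : c * c = 1)
    (h10 : x1 * x0 = x0 * x1 * b) (h21 : x2 * x1 = x1 * x2 * b) (h32 : x3 * x2 = x2 * x3 * b)
    (h43 : x4 * x3 = x3 * x4 * b) (h40 : x4 * x0 = x0 * x4 * b)
    (h20 : x2 * x0 = x0 * x2 * c) (h31 : x3 * x1 = x1 * x3 * c) (h42 : x4 * x2 = x2 * x4 * c)
    (h30 : x3 * x0 = x0 * x3 * c) (h41 : x4 * x1 = x1 * x4 * c)
    (s0 : x0 * x0 = a) (s1 : x1 * x1 = a) (s2 : x2 * x2 = a) (s3 : x3 * x3 = a) (s4 : x4 * x4 = a)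
    (aa : a * a = 1) (pr : x0 * x1 * x2 * x3 * x4 = 1) :
    U64 x0 (x1 * x4) x2 (x3 * x1) a c ∧ a = b * c ∧ x1 * x4 * x0 * x2 * x3 = b * c := by
  have mb : ∀ {k : T}, (∀ z, Commute k z) → ∀ x : T, k * x = x * k ∧ ∀ z, k * (x * z) = x * (k * z) :=
    fun hk x => ⟨hk x, fun z => (hk x).left_comm z⟩
  have e1 : x0 * x1 * x2 * x3 * (x0 * x1 * x2 * x3) = b * c := by
    simp only [mul_assoc, asc h10, asc h21, asc h32, asc h20, asc h31, asc h30,
      h10, h21, h32, h20, h31, h30, asc2 s0, asc2 s1, asc2 s2, asc2 s3, s0, s1, s2, s3,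
      mb ha x0, mb ha x1, mb ha x2, mb ha x3, mb hb x0, mb hb x1, mb hb x2, mb hb x3,
      mb hc x0, mb hc x1, mb hc x2, mb hc x3, mb hb a, mb hc a, mb hc b, asc2 aa, asc2 bb, asc2 cc, aa, bb, cc,
      one_mul, mul_one]
  have e2 : a = b * c := by
    rw [eq_inv_of_mul_eq_one_left pr, ← mul_inv_rev, s4, ← eq_inv_of_mul_eq_one_left aa] at e1
    exact e1
  have e3 : x1 * x4 * x0 * x2 * x3 = x0 * x1 * x2 * x3 * x4 * (b * c) := by
    simp only [mul_assoc, asc h10, asc h40, asc h42, asc h43, h43,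
      mb hb x0, mb hb x1, mb hb x2, mb hb x3, mb hb x4,
      mb hc x0, mb hc x1, mb hc x2, mb hc x3, mb hc x4, mb hc b, asc2 bb, asc2 cc, bb, cc,
      one_mul, mul_one]
  refine ⟨⟨s0, s2, ?_, ?_, aa, cc, ?_, ?_, ?_, ?_, ?_, ?_⟩, e2, by rw [e3, pr, one_mul]⟩
  all_goals
    try rw [Commute, SemiconjBy]
    subst e2
    simp only [mul_assoc, asc h10, asc h21, asc h32, asc h43, asc h40, asc h20, asc h31, asc h42, asc h30,
      asc h41, h10, h21, h32, h43, h40, h20, h31, h42, h30, h41, asc2 s0, asc2 s1, asc2 s2, asc2 s3, asc2 s4,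
      s0, s1, s2, s3, s4, mb hb x0, mb hb x1, mb hb x2, mb hb x3, mb hb x4,
      mb hc x0, mb hc x1, mb hc x2, mb hc x3, mb hc x4, mb hc b, asc2 bb, asc2 cc, bb, cc,
      one_mul, mul_one]

theorem R5.card_le [Finite T] {x g b c : T} (h : R5 x g b c) (hgen : closure ({x, g} : Set T) = ⊤) :
    Nat.card T ≤ 320 := by
  have cen : ∀ z : T, Commute z x → Commute z g → ∀ y, Commute z y := by
    intro z h1 h2 y
    have : closure ({x, g} : Set T) ≤ centralizer {z} := by
      rw [closure_le]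
      rintro t (rfl | rfl) <;> simp only [SetLike.mem_coe, mem_centralizer_singleton_iff]
      exacts [h1.symm, h2.symm]
    rw [hgen] at this
    exact (mem_centralizer_singleton_iff.1 (this (mem_top y))).symm
  have ha := cen _ ((Commute.refl x).mul_left (Commute.refl x)) h.ag
  have hb := cen _ h.bx h.bg
  have hc := cen _ h.cx h.cg
  have sh : ∀ {u v k : T}, Commute k g → u * v = v * u * k → cj g u * cj g v = cj g v * cj g u * k :=
    fun hk e => by rw [← cj_mul, e, cj_mul, cj_mul, cj_fix hk]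
  have sq : ∀ {u : T}, u * u = x * x → cj g u * cj g u = x * x := fun e => by
    rw [← cj_mul, e, cj_fix h.ag]
  have k12 := sh h.bg h.k1
  have k23 := sh h.bg k12
  have k34 := sh h.bg k23
  have k40 := sh h.bg k34
  have k13 := sh h.cg h.k2
  have k24 := sh h.cg k13
  have k30 := sh h.cg k24
  have k41 := sh h.cg k30
  rw [cj5 h.g5] at k40 k30 k41
  have s1 := sq rfl
  have s2 := sq s1
  have s3 := sq s2
  have s4 := sq s3
  have c5 := cj5 h.g5 x
  have pr := h.pr
  obtain ⟨hU, e2, e3⟩ := calc5 ha hb hc h.bb h.cc (flp h.k1 h.bb) (flp k12 h.bb) (flp k23 h.bb)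
    (flp k34 h.bb) k40 (flp h.k2 h.cc) (flp k13 h.cc) (flp k24 h.cc) k30 k41 rfl s1 s2 s3 s4 h.aa pr
  set x1 := cj g x with hx1
  set x2 := cj g x1 with hx2
  set x3 := cj g x2 with hx3
  set x4 := cj g x3 with hx4
  set s : Set T := {x, x1 * x4, x2, x3 * x1} with hs
  let P := closure s
  have m0 : x ∈ P := subset_closure (by simp [hs])
  have m14 : x1 * x4 ∈ P := subset_closure (by simp [hs])
  have m2 : x2 ∈ P := subset_closure (by simp [hs])
  have m31 : x3 * x1 ∈ P := subset_closure (by simp [hs])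
  have m3 : x3 ∈ P := by
    rw [← e2] at e3
    rw [eq_inv_mul_of_mul_eq e3]
    exact mul_mem (inv_mem (mul_mem (mul_mem m14 m0) m2)) (mul_mem m0 m0)
  have m1 : x1 ∈ P := by simpa using mul_mem (inv_mem m3) m31
  have m4 : x4 ∈ P := by simpa using mul_mem (inv_mem m1) m14
  have hP : Nat.card P ≤ 64 := by
    let A : P := ⟨x, m0⟩
    let A' : P := ⟨x1 * x4, m14⟩
    let B : P := ⟨x2, m2⟩
    let B' : P := ⟨x3 * x1, m31⟩
    have hD : U64 A A' B B' (A * A) (A' * A') := by
      refine ⟨rfl, ?_, rfl, ?_, ?_, ?_, ?_, ?_, ?_, ?_, ?_, ?_⟩ <;> apply Subtype.ext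
      all_goals simp only [A, A', B, B', Subgroup.coe_mul, hU.aa', OneMemClass.coe_one]
      exacts [hU.bb, hU.bb', hU.uu, hU.vv, hU.c1, hU.c2, hU.k1, hU.k2, hU.k3, hU.k4]
    refine hD.card_le ?_
    rw [eq_top_iff, ← closure_closure_coe_preimage (k := s)]
    apply Subgroup.closure_mono
    rintro ⟨y, hy⟩ (e | e | e | e) <;> simp only at e <;> subst e <;> simp [A, A', B, B']
  have hN : P.Normal := by
    rw [← normalizer_eq_top_iff, eq_top_iff, ← hgen, closure_le]
    rintro t (rfl | rfl)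
    · exact le_normalizer m0
    · refine mem_normalizer_fintype fun n hn => ?_
      change cj t n ∈ P
      induction hn using closure_induction with
      | mem y hy =>
        rcases hy with rfl | rfl | rfl | rfl
        · exact m1
        · rw [cj_mul, c5]; exact mul_mem m2 m0
        · exact m3
        · rw [cj_mul]; exact mul_mem m4 m2
      | one => simp [cj]
      | mul y z _ _ h1 h2 => rw [cj_mul]; exact mul_mem h1 h2
      | inv y _ h1 => simpa [cj, mul_assoc] using inv_mem h1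
  have hQ : Nat.card (T ⧸ P) ≤ 5 := by
    have h1 : zpowers (g : T ⧸ P) = ⊤ := by
      have := congrArg (Subgroup.map (QuotientGroup.mk' P)) hgen
      rw [MonoidHom.map_closure, Subgroup.map_top_of_surjective _ (QuotientGroup.mk'_surjective P)] at this
      rw [eq_top_iff, ← this, closure_le]
      rintro _ ⟨t, rfl | rfl, rfl⟩
      · rw [QuotientGroup.mk'_apply, (QuotientGroup.eq_one_iff _).2 m0]; exact one_mem _
      · exact mem_zpowers _
    rw [← card_top, ← h1, Nat.card_zpowers]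
    exact orderOf_le_of_pow_eq_one (by norm_num) (by rw [← QuotientGroup.mk_pow, h.g5]; rfl)
  rw [card_eq_card_quotient_mul_card_subgroup P]
  exact Nat.mul_le_mul hQ hP

theorem R5.equiv {T' : Type*} [Group T'] [Finite T] [Finite T'] {x g b c : T} {x' g' b' c' : T'}
    (h : R5 x g b c) (hgen : closure ({x, g} : Set T) = ⊤) (hc : Nat.card T = 320)
    (h' : R5 x' g' b' c') (hgen' : closure ({x', g'} : Set T') = ⊤) (hc' : Nat.card T' = 320) :
    Nonempty (T ≃* T') := by
  set s : Set (T × T') := {(x, x'), (g, g')} with hs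
  let D := closure s
  let A : D := ⟨(x, x'), subset_closure (by simp [hs])⟩
  let B : D := ⟨(g, g'), subset_closure (by simp [hs])⟩
  let p1 : D →* T := (MonoidHom.fst T T').comp D.subtype
  let p2 : D →* T' := (MonoidHom.snd T T').comp D.subtype
  have ext : ∀ u v : D, p1 u = p1 v → p2 u = p2 v → u = v := fun u v e1 e2 => Subtype.ext (Prod.ext e1 e2)
  have a1 : p1 A = x := rfl
  have a2 : p2 A = x' := rfl
  have b1 : p1 B = g := rfl
  have b2 : p2 B = g' := rfl
  have c1 : ∀ u v, p1 (cj u v) = cj (p1 u) (p1 v) := fun u v => by simp [cj]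
  have c2 : ∀ u v, p2 (cj u v) = cj (p2 u) (p2 v) := fun u v => by simp [cj]
  have hD : R5 A B ((cj B A * A)⁻¹ * (A * cj B A)) ((cj B (cj B A) * A)⁻¹ * (A * cj B (cj B A))) := by
    refine ⟨?_, ?_, by group, by group, ?_, ?_, ?_, ?_, ?_, ?_, ?_, ?_⟩ <;> apply ext
    all_goals simp only [map_mul, map_pow, map_inv, map_one, a1, a2, b1, b2, c1, c2, h.k1, h'.k1, h.k2,
      h'.k2, inv_mul_cancel_left]
    exacts [h.g5, h'.g5, by rw [← h.k1]; exact h.pr, by rw [← h'.k1]; exact h'.pr, h.bx, h'.bx, h.bg, h'.bg, h.cx, h'.cx, h.cg, h'.cg, h.bb, h'.bb,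
      h.cc, h'.cc, h.ag, h'.ag, h.aa, h'.aa]
  have hDg : closure ({A, B} : Set D) = ⊤ := by
    rw [eq_top_iff, ← closure_closure_coe_preimage (k := s)]
    apply Subgroup.closure_mono
    rintro ⟨y, hy⟩ (e | e) <;> simp only at e <;> subst e <;> simp [A, B]
  have hle := hD.card_le hDg
  have s1 : Function.Surjective p1 := by
    rw [← MonoidHom.range_eq_top, eq_top_iff, ← hgen, closure_le]
    rintro t (rfl | rfl)
    exacts [⟨A, rfl⟩, ⟨B, rfl⟩]
  have s2 : Function.Surjective p2 := by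
    rw [← MonoidHom.range_eq_top, eq_top_iff, ← hgen', closure_le]
    rintro t (rfl | rfl)
    exacts [⟨A, rfl⟩, ⟨B, rfl⟩]
  exact ⟨(MulEquiv.ofBijective p1 (s1.bijective_of_nat_card_le (by omega))).symm.trans
    (MulEquiv.ofBijective p2 (s2.bijective_of_nat_card_le (by omega)))⟩

theorem fix_mod [Finite T] {g : T} (hg : g ^ 5 = 1) {H : Subgroup T} (hH : ∀ y ∈ H, cj g y ∈ H) :
    Nat.card H ≡ Nat.card (H ⊓ centralizer {g} : Subgroup T) [MOD 5] := by
  classical
  have : Fact (Nat.Prime 5) := ⟨by norm_num⟩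
  have := Fintype.ofFinite H
  let f : Function.End H := fun y => ⟨cj g y, hH _ y.2⟩
  have h1 : f ^ 5 ^ 1 = 1 := by
    funext y
    exact Subtype.ext (cj5 hg y.1)
  have h2 := Equiv.Perm.card_fixedPoints_modEq h1
  rw [← Nat.card_eq_fintype_card, ← Nat.card_eq_fintype_card] at h2
  convert h2 using 1
  exact Nat.card_congr
    { toFun := fun y => ⟨⟨y.1, y.2.1⟩, Subtype.ext (cj_fix (mem_centralizer_singleton_iff.1 y.2.2))⟩
      invFun := fun y => ⟨y.1.1, y.1.2, mem_centralizer_singleton_iff.2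
        (mul_inv_eq_iff_eq_mul.1 (congrArg Subtype.val y.2)).symm⟩
      left_inv := fun _ => rfl
      right_inv := fun _ => rfl }

theorem comm_le {H K : Subgroup T} [K.Normal] (hK : ∀ z ∈ K, ∀ y, Commute z y) (h : H ⊔ K = ⊤) :
    commutator T ≤ ⁅H, H⁆ := by
  rw [commutator_def, commutator_le]
  intro u _ v _
  obtain ⟨a, ha, z, hz, rfl⟩ := mem_sup_of_normal_right.1 (h ▸ mem_top u)
  obtain ⟨b, hb, w, hw, rfl⟩ := mem_sup_of_normal_right.1 (h ▸ mem_top v)
  convert commutator_mem_commutator ha hb using 1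
  simp only [commutatorElement_def, mul_inv_rev, mul_assoc]
  rw [(hK z hz b).left_comm, (hK z hz w).left_comm, mul_inv_cancel_left, (hK w hw a⁻¹).left_comm,
    mul_inv_cancel_left]

theorem irr16 [Finite T] {g : T} (hg : g ^ 5 = 1) {P : Subgroup T} (hP : Nat.card P = 16)
    (hs : P ⊔ zpowers g = ⊤) (hc : commutator T = P) :
    (∀ y ∈ P, cj g y = y → y = 1) ∧ (∀ H ≤ P, H ≠ ⊥ → (∀ y ∈ H, cj g y ∈ H) → H = P) ∧
      (∀ y ∈ P, ∀ z ∈ P, Commute y z) ∧ ∀ y ∈ P, y * y = 1 := by
  have : Fact (Nat.Prime 2) := ⟨Nat.prime_two⟩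
  have hN : P.Normal := hc ▸ inferInstance
  have hp : IsPGroup 2 P := IsPGroup.of_card (n := 4) hP
  have hnt : Nontrivial P := Finite.one_lt_card_iff_nontrivial.1 (by omega)
  have div : ∀ H ≤ P, Nat.card H ≡ 1 [MOD 5] → H = ⊥ ∨ H = P := by
    intro H hH e
    have h1 : Nat.card H ∣ 2 ^ 4 := (card_dvd_of_le hH).trans hP.dvd
    obtain ⟨k, hk, h2⟩ := (Nat.dvd_prime_pow Nat.prime_two).1 h1
    interval_cases k
    · exact Or.inl (card_eq_one.1 h2)
    · rw [h2] at e; exact absurd e (by decide)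
    · rw [h2] at e; exact absurd e (by decide)
    · rw [h2] at e; exact absurd e (by decide)
    · exact Or.inr (eq_of_le_of_card_ge hH (by omega))
  have h0 : P ⊓ centralizer {g} = ⊥ := by
    have e := fix_mod hg (H := P) fun y hy => hN.conj_mem y hy g
    refine (div _ inf_le_left (e.symm.trans (by rw [hP]; decide))).resolve_right fun e' => ?_
    have h1 : ∀ z ∈ zpowers g, ∀ y, Commute z y := by
      rintro _ ⟨k, rfl⟩ y
      have : ⊤ ≤ centralizer {g} := by
        rw [← hs, sup_le_iff]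
        exact ⟨e' ▸ inf_le_right, by simp [mem_centralizer_singleton_iff]⟩
      exact (Commute.symm (mem_centralizer_singleton_iff.1 (this (mem_top y)))).zpow_left k
    have : (zpowers g).Normal := ⟨fun z hz y => by rwa [← (h1 z hz y).eq, mul_inv_cancel_right]⟩
    have h2 := comm_le h1 hs
    have := hp.isNilpotent
    have h3 := Group.IsSolvable.commutator_lt_top_of_nontrivial P
    rw [hc, ← map_subtype_commutator] at h2
    refine h3.ne (eq_top_iff.2 fun y _ => ?_)
    obtain ⟨w, hw, e⟩ := h2 y.2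
    rwa [← show w = y from Subtype.ext e]
  have hirr : ∀ H ≤ P, H ≠ ⊥ → (∀ y ∈ H, cj g y ∈ H) → H = P := by
    intro H hH h1 h2
    have e := fix_mod hg h2
    rw [show H ⊓ centralizer {g} = ⊥ from eq_bot_iff.2 (h0 ▸ inf_le_inf_right _ hH), card_bot] at e
    exact (div H hH e).resolve_left h1
  have hab : ∀ y ∈ P, ∀ z ∈ P, Commute y z := by
    have : (center P).map P.subtype = P := by
      refine hirr _ (map_subtype_le _) (fun e => ?_) fun y hy =>
        (ConjAct.normal_of_characteristic_of_normal (H := P) (K := center P)).conj_mem y hy g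
      have := hp.center_nontrivial
      obtain ⟨z, hz⟩ := exists_ne (1 : center P)
      have : (z.1 : T) ∈ (center P).map P.subtype := ⟨z.1, z.2, rfl⟩
      rw [e, mem_bot] at this
      exact hz (Subtype.ext (Subtype.ext this))
    intro y hy z hz
    rw [← this] at hz
    obtain ⟨w, hw, rfl⟩ := hz
    exact congrArg Subtype.val (mem_center_iff.1 hw ⟨y, hy⟩)
  refine ⟨fun y hy e => mem_bot.1 (h0 ▸ ⟨hy, mem_centralizer_singleton_iff.2
    (mul_inv_eq_iff_eq_mul.1 e).symm⟩), hirr, hab, ?_⟩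
  let H : Subgroup T :=
    { carrier := {y | y ∈ P ∧ y * y = 1}
      mul_mem' := fun {a b} ha hb => ⟨mul_mem ha.1 hb.1, by
        rw [← sq, (hab a ha.1 b hb.1).mul_pow, sq, sq, ha.2, hb.2, one_mul]⟩
      one_mem' := ⟨one_mem _, one_mul _⟩
      inv_mem' := fun {a} ha => ⟨inv_mem ha.1, by rw [← mul_inv_rev, ha.2, inv_one]⟩ }
  have : H = P := by
    refine hirr H (fun y hy => hy.1) (fun e => ?_) fun y hy =>
      ⟨hN.conj_mem y hy.1 g, by rw [← cj_mul, hy.2]; simp [cj]⟩
    obtain ⟨z, hz⟩ := exists_prime_orderOf_dvd_card' (G := P) 2 (by rw [hP]; norm_num)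
    have h1 : (z : T) ∈ H := ⟨z.2, by
      rw [← Subgroup.coe_mul, ← sq, ← hz, pow_orderOf_eq_one]; rfl⟩
    rw [e, mem_bot] at h1
    rw [show z = 1 from Subtype.ext h1] at hz
    simp at hz
  intro y hy
  rw [← this] at hy
  exact hy.2

theorem exists_R5 {G : Type*} [Group G] [Finite G] (hG : Nat.card G = 320)
    (hD : Nat.card (commutator G) = 64) (hZ : IsKleinFour (center (commutator G))) :
    ∃ x g b c : G, R5 x g b c ∧ closure ({x, g} : Set G) = ⊤ := by
  have : Fact (Nat.Prime 5) := ⟨by norm_num⟩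
  obtain ⟨g, hg⟩ := exists_prime_orderOf_dvd_card' (G := G) 5 (by rw [hG]; norm_num)
  have hg5 : g ^ 5 = 1 := by rw [← hg, pow_orderOf_eq_one]
  set P := commutator G with hPdef
  set Z := (center P).map P.subtype with hZdef
  have hZN : Z.Normal := ConjAct.normal_of_characteristic_of_normal
  have hZP : Z ≤ P := map_subtype_le _
  have hZ4 : Nat.card Z = 4 := by rw [hZdef, card_subtype, hZ.card_four]
  have hZ2 : ∀ z ∈ Z, z * z = 1 := by
    rintro _ ⟨w, hw, rfl⟩
    have := Monoid.pow_exponent_eq_one (⟨w, hw⟩ : center P)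
    rw [hZ.exponent_two, sq] at this
    exact congrArg (fun u : center P => (u.1 : G)) this
  have hs : P ⊔ zpowers g = ⊤ := by
    refine eq_top_of_card_eq _ (Nat.dvd_antisymm (card_subgroup_dvd_card _) ?_)
    rw [hG]
    refine Nat.Coprime.mul_dvd_of_dvd_of_dvd (m := 64) (n := 5) (by norm_num)
      (hD ▸ card_dvd_of_le le_sup_left) ?_
    rw [← hg, ← Nat.card_zpowers]; exact card_dvd_of_le le_sup_right
  have hZg : Z ≤ centralizer {g} := by
    have e := fix_mod hg5 (H := Z) fun y hy => hZN.conj_mem y hy g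
    have h1 : Nat.card (Z ⊓ centralizer {g} : Subgroup G) ≤ 4 := hZ4 ▸ card_le_of_le inf_le_left
    rw [hZ4, Nat.ModEq] at e
    exact inf_eq_left.1 (eq_of_le_of_card_ge inf_le_left (by omega))
  have hZc : ∀ z ∈ Z, ∀ y, Commute z y := by
    intro z hz y
    have : ⊤ ≤ centralizer {z} := by
      rw [← hs, sup_le_iff, zpowers_le]
      refine ⟨fun u hu => ?_, mem_centralizer_singleton_iff.2
        (mem_centralizer_singleton_iff.1 (hZg hz)).symm⟩
      obtain ⟨w, hw, rfl⟩ := hz
      exact mem_centralizer_singleton_iff.2 (congrArg Subtype.val (mem_center_iff.1 hw ⟨u, hu⟩))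
    exact Commute.symm (mem_centralizer_singleton_iff.1 (this (mem_top y)))
  let π := QuotientGroup.mk' Z
  have hπ : Function.Surjective π := QuotientGroup.mk'_surjective Z
  have hπ1 : ∀ y, π y = 1 ↔ y ∈ Z := fun y => QuotientGroup.eq_one_iff y
  have πcj : ∀ u v, π (cj u v) = cj (π u) (π v) := fun u v => by simp [cj]
  have hP16 : Nat.card (P.map π) = 16 := by
    have h1 := (P.map π).card_mul_index
    have h2 := P.card_mul_index
    have h3 := card_eq_card_quotient_mul_card_subgroup Z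
    rw [index_map, QuotientGroup.ker_mk', sup_eq_left.2 hZP, MonoidHom.range_eq_top.2 hπ, index_top] at h1
    rw [hD, hG] at h2
    rw [hG, hZ4] at h3
    have h4 : P.index = 5 := by omega
    rw [h4] at h1
    omega
  have hs' : P.map π ⊔ zpowers (π g) = ⊤ := by
    rw [← MonoidHom.map_zpowers, ← Subgroup.map_sup, hs, map_top_of_surjective _ hπ]
  obtain ⟨i1, i2, i3, i4⟩ := irr16 (g := π g) (by rw [← map_pow, hg5, map_one]) hP16 hs' (by
    rw [hPdef, commutator_def, commutator_def, map_commutator, map_top_of_surjective _ hπ])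
  have hPN : P.Normal := inferInstance
  have cP : ∀ y ∈ P, cj g y ∈ P := fun y hy => hPN.conj_mem y hy g
  have j3 : ∀ y ∈ P, ∀ z ∈ P, (z * y)⁻¹ * (y * z) ∈ Z := fun y hy z hz => by
    rw [← hπ1, map_mul, map_inv, map_mul, map_mul, (i3 _ (mem_map_of_mem π hy) _ (mem_map_of_mem π hz)).eq,
      inv_mul_cancel]
  obtain ⟨y, hyP, hyZ⟩ : ∃ y ∈ P, y ∉ Z := by
    by_contra hh
    push Not at hh
    have := card_le_of_le (show P ≤ Z from hh)
    omega
  have m1 := cP _ hyP
  have m2 := cP _ m1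
  have m3 := cP _ m2
  have m4 := cP _ m3
  set n := y * cj g y * cj g (cj g y) * cj g (cj g (cj g y)) * cj g (cj g (cj g (cj g y))) with hn
  have hnZ : n ∈ Z := by
    rw [← hπ1]
    refine i1 _ (mem_map_of_mem π (mul_mem (mul_mem (mul_mem (mul_mem hyP m1) m2) m3) m4)) ?_
    rw [← πcj, hn, cj_mul, cj_mul, cj_mul, cj_mul, cj5 hg5, map_mul π _ y,
      (i3 _ (mem_map_of_mem π (mul_mem (mul_mem (mul_mem m1 m2) m3) m4)) _ (mem_map_of_mem π hyP)).eq,
      ← map_mul]
    simp only [mul_assoc]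
  have hxP : y * n ∈ P := mul_mem hyP (hZP hnZ)
  have hxZ : y * n ∉ Z := fun e => hyZ (by simpa using mul_mem e (inv_mem hnZ))
  have hpr : y * n * cj g (y * n) * cj g (cj g (y * n)) * cj g (cj g (cj g (y * n))) *
      cj g (cj g (cj g (cj g (y * n)))) = 1 := by
    have c := hZc n hnZ
    have e : ∀ u, cj g (u * n) = cj g u * n := fun u => by rw [cj_mul, cj_fix (c g)]
    simp only [e]
    calc _ = n * n * (n * n) * (n * n) := by
          conv_rhs => rw [mul_assoc, mul_assoc]; enter [1]; rw [hn]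
          simp only [mul_assoc, (c (cj g y)).left_comm, (c (cj g (cj g y))).left_comm,
            (c (cj g (cj g (cj g y)))).left_comm, (c (cj g (cj g (cj g (cj g y))))).left_comm]
      _ = 1 := by simp [hZ2 n hnZ]
  generalize y * n = x at hxP hxZ hpr
  have b1 := j3 _ hxP _ (cP _ hxP)
  have b2 := j3 _ hxP _ (cP _ (cP _ hxP))
  have b3 : x * x ∈ Z := by rw [← hπ1, map_mul, i4 _ (mem_map_of_mem π hxP)]
  refine ⟨x, g, _, _, ⟨hg5, hpr, by group, by group, hZc _ b1 _, hZc _ b1 _, hZc _ b2 _, hZc _ b2 _,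
    hZ2 _ b1, hZ2 _ b2, hZc _ b3 _, hZ2 _ b3⟩, ?_⟩
  set H := closure ({x, g} : Set G) with hH
  have hx : x ∈ H := subset_closure (by simp)
  have hgH : g ∈ H := subset_closure (by simp)
  have h1 : H.map π ⊓ P.map π = P.map π := by
    refine i2 _ inf_le_right (fun e => hxZ ((hπ1 _).1 (mem_bot.1 (e ▸ ⟨mem_map_of_mem π hx,
      mem_map_of_mem π hxP⟩)))) fun u hu => ⟨?_, ?_⟩
    · exact (H.map π).mul_mem (mul_mem (mem_map_of_mem π hgH) hu.1) (inv_mem (mem_map_of_mem π hgH))
    · obtain ⟨v, hv, rfl⟩ := hu.2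
      rw [← πcj]; exact mem_map_of_mem π (cP v hv)
  have h2 : H ⊔ Z = ⊤ := by
    have : H.map π = ⊤ := by
      rw [eq_top_iff, ← hs', sup_le_iff, zpowers_le]
      exact ⟨inf_eq_right.1 h1, mem_map_of_mem π hgH⟩
    have h3 := congrArg (comap π) this
    rwa [comap_map_eq, QuotientGroup.ker_mk', comap_top] at h3
  rw [eq_top_iff, ← hs, sup_le_iff, zpowers_le]
  exact ⟨(comm_le hZc h2).trans (H.commutator_le_self), hgH⟩

theorem unique320 {G G' : Type*} [Group G] [Finite G] [Group G'] [Finite G'] (hG : Nat.card G = 320)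
    (hD : Nat.card (commutator G) = 64) (hZ : IsKleinFour (center (commutator G)))
    (hG' : Nat.card G' = 320) (hD' : Nat.card (commutator G') = 64)
    (hZ' : IsKleinFour (center (commutator G'))) : Nonempty (G ≃* G') := by
  obtain ⟨x, g, b, c, h1, h2⟩ := exists_R5 hG hD hZ
  obtain ⟨x', g', b', c', h1', h2'⟩ := exists_R5 hG' hD' hZ'
  exact h1.equiv h2 hG h1' h2' hG'

end Cfsg.Agent.Gl23.HB
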