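import Mathlib
import Cfsg.Agent.Herm.SU3
import Cfsg.Agent.MinI.UFin

/-!
The three-dimensional special unitary group: frames, Borel subgroups, subgroups of small index.
-/

set_option autoImplicit false
set_option linter.unusedSectionVars false

namespace Cfsg.Agent.Gl23.U3

open Module Cfsg.Agent.Herm MulAction

variable {F V : Type*} [Field F] [AddCommGroup V] [Module F V] [FiniteDimensional F V]
  {σ : F →+* F} {B : V →ₛₗ[σ] V →ₗ[F] F}

theorem b_smul (g : SUG B) (x y : V) : B (g • x) (g • y) = B x y := UG.map_b g.1 x y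

theorem g_ne (g : SUG B) {x : V} (hx : x ≠ 0) : g • x ≠ 0 := fun h => hx ((UG.apply_eq_zero g.1).1 h)

theorem g_ext {g h : SUG B} (H : ∀ x : V, g • x = h • x) : g = h := Subtype.ext (UG.ext H)

/-- the stabiliser of a point -/
noncomputable def St (B : V →ₛₗ[σ] V →ₗ[F] F) (v : V) : Subgroup (SUG B) := stabilizer (SUG B) (F ∙ v)

theorem smul_sp (g : SUG B) (v : V) : g • (F ∙ v) = F ∙ (g • v) := by
  change (F ∙ v).map (g.1.1 : V →ₗ[F] V) = _
  rw [Submodule.map_span, Set.image_singleton]; rfl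

theorem sp_eq {x y : V} (hx : x ≠ 0) : (F ∙ x) = F ∙ y ↔ ∃ c : F, x = c • y := by
  refine ⟨fun h => ?_, ?_⟩
  · obtain ⟨c, hc⟩ := Submodule.mem_span_singleton.1 (h ▸ Submodule.mem_span_singleton_self x)
    exact ⟨c, hc.symm⟩
  · rintro ⟨c, rfl⟩
    exact Submodule.span_singleton_smul_eq (IsUnit.mk0 c (left_ne_zero_of_smul hx)) y

theorem mem_St {v : V} (hv : v ≠ 0) {g : SUG B} : g ∈ St B v ↔ ∃ c : F, g • v = c • v := by
  rw [St, mem_stabilizer_iff, smul_sp, sp_eq (g_ne g hv)]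

theorem pow_smul_eig {g : SUG B} {v : V} {c : F} (h : g • v = c • v) (n : ℕ) : g ^ n • v = c ^ n • v := by
  induction n with
  | zero => simp
  | succ n ih => rw [pow_succ, mul_smul, h, smul_comm, ih, smul_smul, pow_succ']

/-- a frame -/
structure Fr (B : V →ₛₗ[σ] V →ₗ[F] F) where
  u : V
  w : V
  f : V
  uu : B u u = 0
  uw : B u w = 0
  ww : B w w = 1
  uf : B u f = 1
  ff : B f f = 0
  fw : B f w = 0

variable (hB : HF B) (hn : finrank F V = 3)

include hB hn in
theorem exists_fr [Finite F] {u f : V} (hu : B u u = 0) (hf : B f f = 0) (huf : B u f = 1) :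
    ∃ r : Fr B, r.u = u ∧ r.f = f := by
  have hWn := hB.finrank_perp_hyp hu hf huf
  have : Nontrivial (perp B (Submodule.span F {u, f})) :=
    Module.nontrivial_of_finrank_pos (R := F) (by omega)
  obtain ⟨w, hw⟩ := (hB.res_perp_hyp hu hf huf).exists_norm_eq (map_one σ)
  exact ⟨⟨u, w, f, hu, (mem_perp_pair.1 w.2).1, hw, huf, hf, (mem_perp_pair.1 w.2).2⟩, rfl, rfl⟩

include hB hn in
theorem exists_fr' [Finite F] {u y : V} (hu : B u u = 0) (hy : B y y = 0) (h : B u y ≠ 0) :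
    ∃ r : Fr B, r.u = u ∧ r.f = (B u y)⁻¹ • y :=
  exists_fr hB hn hu (by simp [hy]) (by simp [h])

include hB hn in
theorem exists_fr_u [Finite F] {u : V} (h0 : u ≠ 0) (hu : B u u = 0) : ∃ r : Fr B, r.u = u := by
  obtain ⟨f, h1, h2⟩ := hB.exists_hyp h0 hu
  exact (exists_fr hB hn hu h2 h1).imp fun _ h => h.1

namespace Fr
variable (r : Fr B)

theorem u_ne : r.u ≠ 0 := ne_zero_of_b (r.uf.trans_ne one_ne_zero)
theorem f_ne : r.f ≠ 0 := ne_zero_of_b' (r.uf.trans_ne one_ne_zero)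
theorem w_ne : r.w ≠ 0 := ne_zero_of_b (r.ww.trans_ne one_ne_zero)

include hB in
theorem rel : B r.u r.u = 0 ∧ B r.u r.w = 0 ∧ B r.w r.w = 1 ∧ B r.u r.f = 1 ∧ B r.f r.f = 0 ∧ B r.f r.w = 0 ∧
    B r.w r.u = 0 ∧ B r.f r.u = 1 ∧ B r.w r.f = 0 :=
  ⟨r.uu, r.uw, r.ww, r.uf, r.ff, r.fw, hB.zero_symm r.uw, hB.one_symm r.uf, hB.zero_symm r.fw⟩

include hB hn in
theorem dec (x : V) : x = B r.f x • r.u + B r.w x • r.w + B r.u x • r.f := by
  have h1 : finrank F (perp B (Submodule.span F {r.u, r.f})) = 1 := by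
    have := hB.finrank_perp_hyp r.uu r.ff r.uf; omega
  obtain ⟨c, hc⟩ := (finrank_eq_one_iff_of_nonzero' (⟨r.w, mem_perp_pair.2 ⟨r.uw, r.fw⟩⟩ :
    perp B (Submodule.span F {r.u, r.f})) (fun h => r.w_ne (congrArg Subtype.val h))).1 h1
    ⟨_, hB.hyp_proj_mem r.uu r.ff r.uf x⟩
  have h2 : c • r.w = x - B r.f x • r.u - B r.u x • r.f := congrArg Subtype.val hc
  have h3 := congrArg (B r.w) h2
  simp only [map_sub, map_smul, smul_eq_mul, r.rel hB, mul_one, mul_zero, sub_zero] at h3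
  rw [← h3, h2]; abel

include hB hn in
theorem iso_perp {y : V} (hy : B y y = 0) (h : B r.u y = 0) : ∃ c : F, y = c • r.u := by
  have e := r.dec hB hn y
  have h2 := hy
  rw [e] at h2
  simp only [map_add, map_smul, LinearMap.add_apply, b_smul_left, smul_eq_mul, r.rel hB, h] at h2
  have h3 : B r.w y = 0 := by simpa using h2
  exact ⟨B r.f y, by rw [h, h3] at e; simpa using e⟩

/-- the Heisenberg group of the frame -/
noncomputable def hs : Heis hB.toInv →* SUG B := hB.heisHom r.uu r.uw r.ww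

theorem hs_smul (x : Heis hB.toInv) (v : V) :
    r.hs hB x • v = v + (σ x.a * B r.w v - x.l * B r.u v) • r.u - (B r.u v * x.a) • r.w :=
  hB.heisHom_apply _ _ _ x v

theorem hs_u (x : Heis hB.toInv) : r.hs hB x • r.u = r.u := by simp [hs_smul, r.rel hB]
theorem hs_w (x : Heis hB.toInv) : r.hs hB x • r.w = r.w + σ x.a • r.u := by simp [hs_smul, r.rel hB]
theorem hs_f (x : Heis hB.toInv) : r.hs hB x • r.f = r.f - x.l • r.u - x.a • r.w := by
  simp [hs_smul, r.rel hB, sub_eq_add_neg]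

theorem hs_inj : Function.Injective (r.hs hB) :=
  (injective_iff_map_eq_one _).2 fun x hx => hB.heisHom_eq_one r.uu r.uw r.ww r.uf r.ff r.fw x
    ⟨1, by change r.hs hB x • r.f = _; rw [hx, one_smul, one_smul]⟩

include hB hn in
theorem fix2 {g : SUG B} {c : F} (h1 : g • r.u = r.u) (h2 : g • r.f = c • r.f) : g = 1 := by
  have hc : c = 1 := by
    have := b_smul g r.u r.f
    rwa [h1, h2, b_smul_right, r.uf, mul_one] at this
  rw [hc, one_smul] at h2
  have h3 : g • r.w = B r.w (g • r.w) • r.w := by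
    have e1 := b_smul g r.u r.w
    have e2 := b_smul g r.f r.w
    rw [h1, r.uw] at e1
    rw [h2, r.fw] at e2
    simpa [e1, e2] using r.dec hB hn (g • r.w)
  obtain ⟨d, hd⟩ := hB.exists_qr_of_range (g := g.1) r.w_ne fun x => by
    change g • x - x ∈ _
    rw [r.dec hB hn x, smul_add, smul_add, smul_comm g, smul_comm g, smul_comm g, h1, h2, h3]
    exact Submodule.mem_span_singleton.2 ⟨B r.w x * (B r.w (g • r.w) - 1), by module⟩
  by_cases hd' : d + σ d + d * σ d * B r.w r.w = 0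
  · have h4 := hB.detU_qr hd'
    rw [← hd, mem_SUG.1 g.2, r.ww, mul_one, left_eq_add] at h4
    exact Subtype.ext (UG.ext fun x => by rw [hd, hB.qr_apply hd', h4]; simp)
  · exact Subtype.ext (hd.trans (hB.qr_of_not hd'))

include hn in
theorem exists_hs {g : SUG B} (h : g • r.u = r.u) : ∃ x, g = r.hs hB x := by
  have e := r.dec hB hn (g • r.f)
  have h1 : B r.u (g • r.f) = 1 := by rw [← r.uf, ← b_smul g r.u r.f, h]
  have h2 := (b_smul g r.f r.f).trans r.ff
  rw [h1] at e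
  generalize B r.f (g • r.f) = a at e
  generalize B r.w (g • r.f) = b at e
  rw [e] at h2
  simp only [map_add, map_smul, LinearMap.add_apply, b_smul_left, smul_eq_mul, r.rel hB, map_one] at h2
  refine ⟨⟨-b, -a, by simp only [map_neg]; linear_combination -h2⟩, ?_⟩
  rw [← inv_mul_eq_one]
  refine r.fix2 hB hn (c := 1) ?_ ?_
  · rw [mul_smul, hs_u, inv_smul_eq_iff, h]
  · rw [mul_smul, hs_f, inv_smul_eq_iff, one_smul, e]; module

include hB in
theorem exists_D {a : F} (ha : a ≠ 0) :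
    ∃ d : SUG B, d • r.u = a • r.u ∧ d • r.f = (σ a)⁻¹ • r.f ∧ d • r.w = (σ a / a) • r.w := by
  obtain ⟨g, h1, h2⟩ := hB.exists_diag r.uu r.ff r.uf ha
  have ha' : σ a ≠ 0 := (map_ne_zero σ).2 ha
  have hc : (σ a / a - 1) + σ (σ a / a - 1) + (σ a / a - 1) * σ (σ a / a - 1) * B r.w r.w = 0 := by
    simp only [map_sub, map_div₀, hB.invol, map_one, r.ww]; field_simp; ring
  refine ⟨⟨g * hB.qr r.w (σ a / a - 1), mem_SUG.2 ?_⟩, ?_, ?_, ?_⟩
  · rw [map_mul, Units.val_mul, h1, hB.detU_qr hc, r.ww]; field_simp; ring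
  all_goals change g.1 ((hB.qr r.w _).1 _) = _; simp [hB.qr_apply hc, h2, r.rel hB]
  all_goals module

include hB hn in
theorem eig_w {g : SUG B} {a c : F} (h1 : g • r.u = a • r.u) (h2 : g • r.f = c • r.f) :
    g • r.w = (σ a / a) • r.w ∧ c = (σ a)⁻¹ := by
  have ha : a ≠ 0 := left_ne_zero_of_smul (h1 ▸ g_ne g r.u_ne)
  obtain ⟨d, d1, d2, d3⟩ := r.exists_D hB ha
  have : d⁻¹ * g = 1 := r.fix2 hB hn (c := c * σ a) (by rw [mul_smul, h1, inv_smul_eq_iff, d1]) (by
    rw [mul_smul, h2, inv_smul_eq_iff, smul_comm d, d2, smul_smul, mul_inv_cancel_right₀ ((map_ne_zero σ).2 ha)])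
  obtain rfl := inv_mul_eq_one.1 this
  exact ⟨d3, smul_left_injective F r.f_ne (h2.symm.trans d2)⟩

include hn in
theorem bor {g d : SUG B} {a : F} (h : g • r.u = a • r.u) (d1 : d • r.u = a • r.u) : ∃ z, g = r.hs hB z * d := by
  have ha : a ≠ 0 := left_ne_zero_of_smul (h ▸ g_ne g r.u_ne)
  refine (r.exists_hs hB hn (g := g * d⁻¹) ?_).imp fun z hz => by rw [← hz, inv_mul_cancel_right]
  refine smul_right_injective V ha ?_
  simp only
  rw [← smul_comm, mul_smul, ← d1, inv_smul_smul, h, d1]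

include hn in
theorem conj_hs {g : SUG B} {a : F} (h : g • r.u = a • r.u) (x : Heis hB.toInv) : ∃ y,
    g * r.hs hB x * g⁻¹ = r.hs hB y ∧ y.a = σ a ^ 2 / a * x.a ∧ (x.a = 0 → y.l = σ a * a * x.l) := by
  have ha : a ≠ 0 := left_ne_zero_of_smul (h ▸ g_ne g r.u_ne)
  have ha' : σ a ≠ 0 := (map_ne_zero σ).2 ha
  obtain ⟨d, d1, d2, d3⟩ := r.exists_D hB ha
  obtain ⟨z, hz⟩ := r.bor hB hn h d1
  obtain ⟨y, hy⟩ := r.bor hB hn (g := g * r.hs hB x) (by rw [mul_smul, hs_u, h]) h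
  have h1 := congrArg (fun k : SUG B => B r.f (k • r.w)) hy
  have h2 := congrArg (fun k : SUG B => B r.f (k • r.f)) hy
  have h3 : g • r.w = (σ a / a) • r.w + (σ a / a * σ z.a) • r.u := by
    rw [hz, mul_smul, d3, smul_comm, hs_w, smul_add, smul_smul]
  have h4 : B r.u (g • r.f) = (σ a)⁻¹ := by
    have := b_smul g r.u r.f
    rw [h, b_smul_left, r.uf] at this
    exact eq_inv_of_mul_eq_one_right this
  simp only [mul_smul, hs_w, smul_add, smul_comm g, h, h3, smul_comm (r.hs hB y), hs_u, map_add, map_smul,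
    smul_eq_mul, r.rel hB] at h1
  have h5 : y.a = σ a ^ 2 / a * x.a := by
    have : σ y.a = a ^ 2 / σ a * σ x.a := by field_simp; field_simp at h1; linear_combination -h1
    simpa [hB.invol] using congrArg σ this
  refine ⟨y, by rw [hy, mul_inv_cancel_right], h5, fun hx => ?_⟩
  rw [mul_smul, mul_smul, hs_f, hs_smul] at h2
  simp only [smul_sub, smul_comm g, h, map_add, map_sub, map_smul, smul_eq_mul, r.rel hB, h5, hx, h4, mul_zero,
    zero_mul, map_zero] at h2
  field_simp at h2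
  linear_combination h2

end Fr

end Cfsg.Agent.Gl23.U3
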