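import Mathlib
import Cfsg.Agent.Gl23.UA

/-!
Subgroups of `SU₃(q)` of index at most `q³` are transitive on the isotropic points.
-/

set_option autoImplicit false
set_option linter.unusedSectionVars false

namespace Cfsg.Agent.Gl23.U3

open Module Cfsg.Agent.Herm MulAction

variable {F V : Type*} [Field F] [AddCommGroup V] [Module F V] [FiniteDimensional F V]
  {σ : F →+* F} {B : V →ₛₗ[σ] V →ₗ[F] F} [Finite F] {q : ℕ}

instance finSUG : Finite (SUG B) := haveI : Finite V := Module.finite_of_finite F; inferInstance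

/-- the eigenvalues of `H` on `u` -/
def Tg (H : Subgroup (SUG B)) (u : V) : Subgroup Fˣ where
  carrier := {a | ∃ g ∈ H, g • u = (a : F) • u}
  mul_mem' := by
    rintro a b ⟨g, hg, h1⟩ ⟨k, hk, h2⟩
    exact ⟨g * k, mul_mem hg hk, by rw [mul_smul, h2, smul_comm, h1, smul_smul, mul_comm, Units.val_mul]⟩
  one_mem' := ⟨1, one_mem _, by simp⟩
  inv_mem' := by
    rintro a ⟨g, hg, h1⟩
    exact ⟨g⁻¹, inv_mem hg, by rw [inv_smul_eq_iff, smul_comm, h1, smul_smul]; simp⟩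

/-- transitivity on the isotropic points -/
def Tr (H : Subgroup (SUG B)) : Prop :=
  ∀ x y : V, x ≠ 0 → B x x = 0 → y ≠ 0 → B y y = 0 → ∃ h ∈ H, ∃ c : F, h • x = c • y

variable (hB : HF B) (hF : Nat.card F = q ^ 2) (hn : finrank F V = 3)

namespace Fr
variable (r : Fr B)

include hB in
theorem St_spec (g : St B r.u) : g.1 • r.u = B r.f (g.1 • r.u) • r.u := by
  obtain ⟨c, hc⟩ := (mem_St r.u_ne).1 g.2
  simp [hc, r.rel hB]

/-- the eigenvalue on `u` -/
noncomputable def al : St B r.u →* Fˣ := MonoidHom.toHomUnits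
  { toFun := fun g => B r.f (g.1 • r.u)
    map_one' := by simp [r.rel hB]
    map_mul' := fun g k => by
      rw [Subgroup.coe_mul, mul_smul, r.St_spec hB k, smul_comm, b_smul_right, b_smul_right, (r.rel hB).2.2.2.2.2.2.2.1]
      ring }

theorem al_spec (g : St B r.u) : g.1 • r.u = (r.al hB g : F) • r.u := r.St_spec hB g

include hn in
theorem card_Hu (H : Subgroup (SUG B)) :
    Nat.card (H ⊓ St B r.u : Subgroup _) = Nat.card (H.comap (r.hs hB)) * Nat.card (Tg H r.u) := by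
  have h1 := card_inf_ker (r.al hB) (H.subgroupOf (St B r.u))
  have h2 : (H.subgroupOf (St B r.u)).map (r.al hB) = Tg H r.u := by
    ext a
    constructor
    · rintro ⟨g, hg, rfl⟩
      exact ⟨g.1, hg, r.al_spec hB g⟩
    · rintro ⟨g, hg, h⟩
      exact ⟨⟨g, (mem_St r.u_ne).2 ⟨_, h⟩⟩, hg, Units.ext (smul_left_injective F r.u_ne
        ((r.al_spec hB _).symm.trans h))⟩
  have h3 : (H.subgroupOf (St B r.u) ⊓ (r.al hB).ker).map (St B r.u).subtype =
      (H.comap (r.hs hB)).map (r.hs hB) := by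
    ext g
    constructor
    · rintro ⟨g, ⟨hg, h⟩, rfl⟩
      obtain ⟨x, hx⟩ := r.exists_hs hB hn (g := g.1) (by rw [r.al_spec hB, show r.al hB g = 1 from h]; simp)
      exact ⟨x, show r.hs hB x ∈ H from hx ▸ hg, hx.symm⟩
    · rintro ⟨x, hx, rfl⟩
      exact ⟨⟨r.hs hB x, (mem_St r.u_ne).2 ⟨1, by rw [hs_u, one_smul]⟩⟩, ⟨hx, Units.ext (smul_left_injective F r.u_ne
        ((r.al_spec hB _).symm.trans (by simp [hs_u])))⟩, rfl⟩
  have h4 := congrArg (fun K : Subgroup (SUG B) => Nat.card K) h3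
  simp only [Subgroup.card_map_of_injective (r.hs_inj hB),
    Subgroup.card_map_of_injective (St B r.u).subtype_injective] at h4
  rw [← h4, ← h2, mul_comm, h1, ← Subgroup.inf_subgroupOf_right,
    Nat.card_congr (Subgroup.subgroupOfEquivOfLe inf_le_right).toEquiv]

include hB hF hn in
theorem card_St : Nat.card (St B r.u) = q ^ 3 * (q ^ 2 - 1) := by
  have := r.card_Hu hB hn ⊤
  rw [top_inf_eq, Subgroup.comap_top, Subgroup.card_top, Heis.card hF,
    show Tg ⊤ r.u = ⊤ from eq_top_iff.2 fun a _ => (r.exists_D hB a.ne_zero).imp fun _ h => ⟨trivial, h.1⟩,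
    Subgroup.card_top, Nat.card_units, hF] at this
  exact this

end Fr

include hB hF hn in
theorem card_G : Nat.card (SUG B) = q ^ 3 * (q ^ 2 - 1) * (q ^ 3 + 1) := by
  have : Nontrivial V := Module.nontrivial_of_finrank_pos (R := F) (by omega)
  have h := hB.card_SUG hF
  rw [hB.card_UG' hF, hn] at h
  refine Nat.eq_of_mul_eq_mul_left q.succ_pos (h.trans ?_)
  simp only [ordU, Finset.prod_range_succ, Finset.prod_range_zero]
  norm_num
  ring

include hF in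
theorem sq_pos' : 0 < q ^ 2 - 1 := by have := two_le_of_card hF; have : 2 ^ 2 ≤ q ^ 2 := by gcongr
                                      omega

include hB hF hn in
theorem Fr.count (r : Fr B) (H : Subgroup (SUG B)) : ∃ n ≤ q ^ 3 + 1, (n = q ^ 3 + 1 ↔ Tr H) ∧
    Nat.card H = n * (Nat.card (H.comap (r.hs hB)) * Nat.card (Tg H r.u)) := by
  have h2 := two_le_of_card hF
  have hi : (orbit (SUG B) (F ∙ r.u)).ncard = q ^ 3 + 1 := by
    have := (St B r.u).card_mul_index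
    rw [r.card_St hB hF hn, card_G hB hF hn, St, index_stabilizer] at this
    exact Nat.eq_of_mul_eq_mul_left (Nat.mul_pos (by positivity) (sq_pos' hF)) this
  have hf : (orbit (SUG B) (F ∙ r.u)).Finite := Set.finite_of_ncard_ne_zero (by omega)
  have hs : orbit H (F ∙ r.u) ⊆ orbit (SUG B) (F ∙ r.u) := by rintro _ ⟨h, rfl⟩; exact ⟨h.1, rfl⟩
  refine ⟨(orbit H (F ∙ r.u)).ncard, hi ▸ Set.ncard_le_ncard hs hf, ⟨fun h => ?_, fun h => ?_⟩, ?_⟩
  · have he := Set.eq_of_subset_of_ncard_le hs (by omega) hf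
    have key : ∀ x, x ≠ 0 → B x x = 0 → ∃ h : H, h.1 • (F ∙ r.u) = F ∙ x := fun x h0 hx => by
      obtain ⟨g, hg, e⟩ := hB.SUG_trans_iso hn.ge r.u_ne h0 r.uu hx
      exact he.ge ⟨⟨g, hg⟩, by simp only [smul_sp]; exact congrArg _ (congrArg _ e)⟩
    intro x y x0 hx y0 hy
    obtain ⟨a, ha⟩ := key x x0 hx
    obtain ⟨b, hb⟩ := key y y0 hy
    refine ⟨b.1 * a.1⁻¹, mul_mem b.2 (inv_mem a.2), (sp_eq (g_ne _ x0)).1 ?_⟩
    rw [← smul_sp, ← ha, ← hb, mul_smul, inv_smul_smul]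
  · rw [← hi, Set.Subset.antisymm hs]
    rintro _ ⟨g, rfl⟩
    obtain ⟨k, hk, c, e⟩ := h r.u (g • r.u) r.u_ne r.uu (g_ne g r.u_ne) ((b_smul g _ _).trans r.uu)
    exact ⟨⟨k, hk⟩, by
      change k • (F ∙ r.u) = g • (F ∙ r.u)
      rw [smul_sp, smul_sp, sp_eq (g_ne k r.u_ne)]; exact ⟨c, e⟩⟩
  · rw [← r.card_Hu hB hn, ← index_stabilizer, ← (stabilizer H (F ∙ r.u)).index_mul_card,
      show stabilizer H (F ∙ r.u) = (St B r.u).subgroupOf H from rfl, ← Subgroup.inf_subgroupOf_right,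
      Nat.card_congr (Subgroup.subgroupOfEquivOfLe inf_le_right).toEquiv, inf_comm]

include hB hn in
theorem perp_of_fix {g : SUG B} (hg : g ≠ 1) {u y : V} {c : F} (h0 : u ≠ 0) (hu : B u u = 0) (hy : B y y = 0)
    (h1 : g • u = u) (h2 : g • y = c • y) : ∃ d : F, y = d • u := by
  by_cases h : B u y = 0
  · obtain ⟨r, rfl⟩ := exists_fr_u hB hn h0 hu
    exact r.iso_perp hB hn hy h
  obtain ⟨r, rfl, e⟩ := exists_fr' hB hn hu hy h
  exact absurd (r.fix2 hB hn (c := c) h1 (by rw [e, smul_comm, h2, smul_comm])) hg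

include hB hF hn in
theorem pow_of_fix {g : SUG B} {u : V} (h0 : u ≠ 0) (hu : B u u = 0) (h : g • u = u) : g ^ q ^ 3 = 1 := by
  obtain ⟨r, rfl⟩ := exists_fr_u hB hn h0 hu
  obtain ⟨x, rfl⟩ := r.exists_hs hB hn h
  rw [← map_pow, ← Heis.card (h := hB.toInv) hF, pow_card_eq_one', map_one]

include hB hF hn in
theorem exists_fix_p {p k : ℕ} [hp : Fact p.Prime] (hq : q = p ^ k) {S : Subgroup (SUG B)} (hS : IsPGroup p S) :
    ∃ z : V, z ≠ 0 ∧ B z z = 0 ∧ ∀ g ∈ S, g • z = z := by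
  obtain ⟨u, w, f, h1, h2, h3, h4, h5, h6⟩ := hB.exists_frame_three hn.ge
  let r : Fr B := ⟨u, w, f, h1, h2, h3, h4, h5, h6⟩
  have hc : Nat.card (r.hs hB).range = q ^ 3 := by
    rw [← Heis.card (h := hB.toInv) hF]; exact (Nat.card_congr (MonoidHom.ofInjective (r.hs_inj hB)).toEquiv).symm
  have h7 := two_le_of_card hF
  have hk : p ∣ q := hq ▸ dvd_pow_self p (by rintro rfl; rw [pow_zero] at hq; omega)
  have hi : ¬ p ∣ (r.hs hB).range.index := by
    have := (r.hs hB).range.card_mul_index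
    rw [hc, card_G hB hF hn, mul_assoc] at this
    rw [Nat.eq_of_mul_eq_mul_left (by positivity) this, hp.out.dvd_mul]
    rintro (h | h)
    · exact Classical.GLBasic.not_dvd_pow_sub_one hp.out hk (by omega) two_ne_zero h
    · exact hp.out.one_lt.ne' (Nat.dvd_one.1 ((Nat.dvd_add_right (dvd_pow hk three_ne_zero)).1 h))
  obtain ⟨P, hP⟩ := hS.exists_le_sylow
  obtain ⟨g, rfl⟩ := exists_smul_eq (SUG B)
    ((IsPGroup.of_card (n := k * 3) (by rw [hc, hq, pow_mul])).toSylow hi) P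
  refine ⟨g • r.u, g_ne g r.u_ne, (b_smul g _ _).trans r.uu, fun s hs => ?_⟩
  obtain ⟨_, ⟨x, rfl⟩, rfl⟩ := (Subgroup.mem_smul_pointwise_iff_exists _ _ _).1 (hP hs)
  simp [mul_smul, Fr.hs_u]

include hB hF hn in
theorem tr_of_fix {H : Subgroup (SUG B)} (h : ∀ x : V, x ≠ 0 → B x x = 0 → ∃ g ∈ H, g ≠ 1 ∧ g • x = x) : Tr H := by
  obtain ⟨p, k, hp, -, hq⟩ := exists_char_pow hF
  haveI := Fact.mk hp
  have key : ∀ x : V, x ≠ 0 → B x x = 0 → ∃ (g : H) (S : Sylow p H), g ∈ S ∧ g.1 ≠ 1 ∧ g.1 • x = x := by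
    intro x x0 hx
    obtain ⟨g, hg, h1, h2⟩ := h x x0 hx
    have : IsPGroup p (Subgroup.zpowers (⟨g, hg⟩ : H)) := IsPGroup.of_card_dvd_pow (n := k * 3) (by
      rw [Nat.card_zpowers, pow_mul, ← hq]
      exact orderOf_dvd_of_pow_eq_one (Subtype.ext (pow_of_fix hB hF hn x0 hx h2)))
    obtain ⟨S, hS⟩ := this.exists_le_sylow
    exact ⟨_, S, hS (Subgroup.mem_zpowers _), h1, h2⟩
  intro x y x0 hx y0 hy
  obtain ⟨g, S, h1, h2, h3⟩ := key x x0 hx
  obtain ⟨g', S', h4, h5, h6⟩ := key y y0 hy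
  obtain ⟨t, rfl⟩ := exists_smul_eq H S S'
  obtain ⟨z, z0, hz, h7⟩ := exists_fix_p hB hF hn hq ((t • S).2.map H.subtype)
  obtain ⟨c, hc⟩ := perp_of_fix hB hn h5 y0 hy hz h6 (c := 1) (by rw [one_smul]; exact h7 _ ⟨g', h4, rfl⟩)
  obtain ⟨d, hd⟩ := perp_of_fix hB hn (g := t.1 * g.1 * t.1⁻¹) (by simpa using h2) z0 hz
    ((b_smul t.1 x x).trans hx) (h7 _ ⟨_, Subgroup.smul_mem_pointwise_smul g (MulAut.conj t) _ h1, rfl⟩) (c := 1)
    (by simp [mul_smul, h3])
  exact ⟨t, t.2, d * c, by rw [hd, hc, smul_smul]⟩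

include hB hF hn in
theorem tr_of_index {H : Subgroup (SUG B)} (hH : H.index ≤ q ^ 3) : Tr H := by
  by_contra h
  refine h (tr_of_fix hB hF hn fun x x0 hx => ?_)
  by_contra! h1
  obtain ⟨r, rfl⟩ := exists_fr_u hB hn x0 hx
  obtain ⟨n, h2, h3, h4⟩ := r.count hB hF hn H
  have h5 : H.comap (r.hs hB) = ⊥ := eq_bot_iff.2 fun x hx => by
    by_contra h6
    exact h1 _ hx (fun e => h6 (r.hs_inj hB (e.trans (map_one _).symm))) (r.hs_u hB x)
  have h6 : Nat.card (Tg H r.u) ≤ q ^ 2 - 1 := by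
    rw [← hF, ← Nat.card_units]; exact Subgroup.card_le_card_group _
  have h7 := H.card_mul_index
  rw [card_G hB hF hn, h4, h5, Subgroup.card_bot, one_mul] at h7
  have h8 : n ≤ q ^ 3 := Nat.le_of_lt_succ (lt_of_le_of_ne h2 fun e => h (h3.1 e))
  have h9 : n * Nat.card (Tg H r.u) * H.index ≤ q ^ 3 * (q ^ 2 - 1) * q ^ 3 := by gcongr
  have h10 := two_le_of_card hF
  have := Nat.le_of_mul_le_mul_left (h7 ▸ h9) (Nat.mul_pos (by positivity) (sq_pos' hF))
  omega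

include hB hF hn in
theorem Fr.card_tr (r : Fr B) {H : Subgroup (SUG B)} (h : Tr H) :
    Nat.card H = (q ^ 3 + 1) * (Nat.card (H.comap (r.hs hB)) * Nat.card (Tg H r.u)) ∧
    q ^ 3 * (q ^ 2 - 1) = Nat.card (H.comap (r.hs hB)) * Nat.card (Tg H r.u) * H.index := by
  obtain ⟨n, -, h3, h4⟩ := r.count hB hF hn H
  rw [h3.2 h] at h4
  refine ⟨h4, Nat.eq_of_mul_eq_mul_left (q ^ 3).succ_pos ?_⟩
  rw [← mul_assoc (q ^ 3).succ (_ * _), ← h4, H.card_mul_index, card_G hB hF hn, mul_comm]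

end Cfsg.Agent.Gl23.U3
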