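import Mathlib
import Cfsg.Agent.Gl23.UB
import Cfsg.Agent.Gl23.HB

/-!
The centraliser of an involution in `SU₃(4)`.
-/

set_option autoImplicit false
set_option linter.unusedSectionVars false

namespace Cfsg.Agent.Gl23.U3

open Module Cfsg.Agent.Herm MulAction Subgroup

variable {F V : Type*} [Field F] [AddCommGroup V] [Module F V] [FiniteDimensional F V]
  {σ : F →+* F} {B : V →ₛₗ[σ] V →ₗ[F] F} [Finite F] [CharP F 2]

theorem cent320 (hB : HF B) (hF : Nat.card F = 4 ^ 2) (hn : finrank F V = 3) :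
    ∃ t : SUG B, orderOf t = 2 ∧ Nat.card (centralizer ({t} : Set (SUG B))) = 320 ∧
      Nonempty (commutator (centralizer ({t} : Set (SUG B))) ≃* Heis hB.toInv) := by
  have : Fact (Nat.Prime 2) := ⟨Nat.prime_two⟩
  obtain ⟨u, w, f, h1, h2, h3, h4, h5, h6⟩ := hB.exists_frame_three hn.ge
  let r : Fr B := ⟨u, w, f, h1, h2, h3, h4, h5, h6⟩
  let z : Heis hB.toInv := Heis.z _ 1 (by rw [map_one, CharTwo.add_self_eq_zero])
  have hz1 : r.hs hB z ≠ 1 := fun e =>
    one_ne_zero (congrArg Heis.l ((map_eq_one_iff _ (r.hs_inj hB)).1 e))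
  set C := centralizer ({r.hs hB z} : Set (SUG B)) with hC
  have mem : ∀ g, g ∈ C ↔ ∃ a : F, σ a * a = 1 ∧ g • r.u = a • r.u := by
    intro g
    rw [hC, mem_centralizer_singleton_iff]
    constructor
    · intro e
      obtain ⟨d, hd⟩ := perp_of_fix hB hn hz1 (y := g • r.u) (c := 1) r.u_ne r.uu
        (by rw [b_smul, r.uu]) (r.hs_u hB z) (by rw [← mul_smul, ← e, mul_smul, r.hs_u, one_smul])
      obtain ⟨y, e1, -, e2⟩ := r.conj_hs hB hn hd z
      rw [e, mul_inv_cancel_right] at e1
      rw [← r.hs_inj hB e1] at e2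
      exact ⟨d, by simpa [z, Heis.z] using (e2 rfl).symm, hd⟩
    · rintro ⟨d, h, hd⟩
      obtain ⟨y, e1, e3, e2⟩ := r.conj_hs hB hn hd z
      have : y = z := Heis.ext (by rw [e3]; simp [z, Heis.z]) (by rw [e2 rfl, h, one_mul])
      rw [this] at e1
      exact mul_inv_eq_iff_eq_mul.1 e1
  have hR : ∀ x, r.hs hB x ∈ C := fun x => (mem _).2 ⟨1, by simp, by rw [r.hs_u, one_smul]⟩
  have hT : Tg C r.u = normOne σ := by
    ext a
    rw [mem_normOne]
    constructor
    · rintro ⟨g, hg, e⟩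
      obtain ⟨b, hb, e'⟩ := (mem g).1 hg
      rwa [smul_left_injective F r.u_ne (e.symm.trans e')]
    · intro h
      obtain ⟨d, hd, -⟩ := r.exists_D hB a.ne_zero
      exact ⟨d, (mem d).2 ⟨a, h, hd⟩, hd⟩
  refine ⟨r.hs hB z, orderOf_eq_prime (by
    rw [sq, ← map_mul, (Heis.mul_self_eq_one_iff z).2 rfl, map_one]) hz1, ?_, ?_⟩
  · have := r.card_Hu hB hn C
    rw [inf_eq_left.2 fun g hg => (mem_St r.u_ne).2 (((mem g).1 hg).imp fun _ h => h.2), hT,
      hB.toInv.card_normOne hF, show C.comap (r.hs hB) = ⊤ from eq_top_iff.2 fun x _ => hR x, card_top,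
      Heis.card hF] at this
    exact this
  · have e : (commutator C).map C.subtype = (r.hs hB).range := by
      rw [map_subtype_commutator]
      refine le_antisymm (commutator_le.2 fun g hg k hk => ?_) ?_
      · obtain ⟨a, -, ha⟩ := (mem g).1 hg
        obtain ⟨b, -, hb⟩ := (mem k).1 hk
        obtain ⟨x, hx⟩ := r.exists_hs hB hn (g := (k * g)⁻¹⁻¹ * 1 * (k * g)⁻¹ * (g * k * g⁻¹ * k⁻¹)) (by
          have e1 : (g * k) • r.u = (k * g) • r.u := by
            rw [mul_smul, mul_smul, hb, ha, smul_comm g, smul_comm k, ha, hb, smul_comm]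
          obtain ⟨c, -, hc⟩ := (mem _).1 (inv_mem (mul_mem hk hg))
          rw [show (k * g)⁻¹⁻¹ * 1 * (k * g)⁻¹ * (g * k * g⁻¹ * k⁻¹) = g * k * (k * g)⁻¹ by group, mul_smul,
            hc, smul_comm, e1, ← smul_comm, ← hc, smul_inv_smul])
        exact ⟨x, by rw [← hx, commutatorElement_def]; group⟩
      · rintro _ ⟨x, rfl⟩
        have : Nontrivial (normOne σ) := Finite.one_lt_card_iff_nontrivial.1 (by
          rw [hB.toInv.card_normOne hF]; norm_num)
        obtain ⟨a, ha⟩ := exists_ne (1 : normOne σ)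
        have a1 := mem_normOne.1 a.2
        have a0 := a.1.ne_zero
        have a2 : σ a.1 ^ 2 / a.1 - 1 ≠ 0 := by
          intro e
          rw [hB.toInv.apply_pow hF] at e a1
          field_simp at e
          refine ha (Subtype.ext (Units.ext ?_))
          have : ((a.1 : F) - 1) ^ 2 = 0 := by
            linear_combination e - (a.1 : F) ^ 2 * a1 + (1 - a.1) * (CharTwo.two_eq_zero : (2 : F) = 0)
          exact sub_eq_zero.1 (pow_eq_zero_iff two_ne_zero |>.1 this)
        obtain ⟨d, hd, -⟩ := r.exists_D hB a0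
        obtain ⟨v, hv⟩ := Heis.exists_a hB.toInv (x.a / (σ a.1 ^ 2 / a.1 - 1))
        obtain ⟨y, e1, e3, -⟩ := r.conj_hs hB hn hd v
        have m1 : r.hs hB (y * v⁻¹) ∈ ⁅C, C⁆ := by
          rw [map_mul, map_inv, ← e1]
          exact commutator_mem_commutator ((mem d).2 ⟨_, a1, hd⟩) (hR v)
        have m2 : (y * v⁻¹)⁻¹ * x ∈ commutator (Heis hB.toInv) := by
          rw [Heis.commutator_eq_center, Heis.mem_center_iff]
          simp only [Heis.mul_a, Heis.inv_a, e3, hv]
          generalize σ a.1 ^ 2 / a.1 = k at a2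
          field_simp; ring
        have m3 : r.hs hB ((y * v⁻¹)⁻¹ * x) ∈ ⁅C, C⁆ := by
          have := mem_map_of_mem (r.hs hB) m2
          rw [commutator_def, map_commutator] at this
          exact commutator_mono (by rintro _ ⟨s, -, rfl⟩; exact hR s)
            (by rintro _ ⟨s, -, rfl⟩; exact hR s) this
        have := mul_mem m1 m3
        rwa [← map_mul, mul_inv_cancel_left] at this
    exact ⟨((commutator C).equivMapOfInjective _ C.subtype_injective).trans
      ((MulEquiv.subgroupCongr e).trans (MonoidHom.ofInjective (r.hs_inj hB)).symm)⟩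

theorem iso320' {σ : F →+* F} (h : Inv σ) (hF : Nat.card F = 4 ^ 2) {G K : Type*} [Group G] [Group K]
    [Finite G] [Finite K] (hG : Nat.card G = 320) (hD : Nat.card (commutator G) = 64)
    (hZ : IsKleinFour (center (commutator G))) (h2 : Nat.card K = 320) (e : commutator K ≃* Heis h) :
    Nonempty (G ≃* K) := by
  have h4 : Nat.card (center (commutator K)) = 4 := by
    rw [Nat.card_congr (Orth.centerEquiv e).toEquiv, Heis.card_center hF]
  refine HB.unique320 hG hD hZ h2 (by rw [Nat.card_congr e.toEquiv, Heis.card hF]; norm_num) ⟨h4, ?_⟩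
  have : Nontrivial (center (commutator K)) := Finite.one_lt_card_iff_nontrivial.1 (by omega)
  rw [Monoid.exponent_eq_prime_iff Nat.prime_two]
  intro g hg
  have : Fact (Nat.Prime 2) := ⟨Nat.prime_two⟩
  refine orderOf_eq_prime (Subtype.ext (e.injective ?_)) hg
  rw [sq, Subgroup.coe_mul, map_mul, OneMemClass.coe_one, map_one, Heis.mul_self_eq_one_iff,
    ← Heis.mem_center_iff, Orth.mem_center_equiv]
  exact g.2

theorem iso320 (hB : HF B) (hF : Nat.card F = 4 ^ 2) (hn : finrank F V = 3) {G : Type*} [Group G]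
    [Finite G] (hG : Nat.card G = 320) (hD : Nat.card (commutator G) = 64)
    (hZ : IsKleinFour (center (commutator G))) {K : Type*} [Group K]
    (E : K ≃* SUG B ⧸ center (SUG B)) :
    ∃ t : K, orderOf t = 2 ∧ Nonempty (G ≃* centralizer ({t} : Set K)) := by
  obtain ⟨t, h1, h2, ⟨e⟩⟩ := cent320 hB hF hn
  obtain ⟨e1⟩ := iso320' hB.toInv hF hG hD hZ h2 e
  have hc : center (SUG B) = ⊥ := card_eq_one.1 (by rw [hB.card_center_SUG hF (by omega), hn]; rfl)
  let E' : SUG B ≃* K := (E.trans ((QuotientGroup.quotientMulEquivOfEq hc).trans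
    QuotientGroup.quotientBot)).symm
  refine ⟨E' t, (E'.orderOf_eq t).trans h1, ⟨e1.trans ((E'.subgroupMap _).trans
    (MulEquiv.subgroupCongr ?_))⟩⟩
  ext k
  obtain ⟨k, rfl⟩ := E'.surjective k
  rw [mem_centralizer_singleton_iff, ← map_mul, ← map_mul, E'.apply_eq_iff_eq,
    ← mem_centralizer_singleton_iff]
  exact mem_map_iff_mem (f := (E' : SUG B →* K)) E'.injective

end Cfsg.Agent.Gl23.U3
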