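import Mathlib
import Cfsg.Agent.Gl23.Ord2
import Cfsg.Agent.S1001

/-!
Simple groups of order `5616`: the principal `13`-block and the involution centralisers.
-/

set_option autoImplicit false

namespace Cfsg.Agent.Gl23.O56

open Cfsg.Agent.Char Cfsg.Agent.Core Cfsg.Agent.Block Subgroup

set_option synthInstance.maxSize 1024 in
theorem degX : ∀ n : ℕ, n ≤ 75 → n ∣ 5616 → n ≠ 1 → ∀ e ∈ [(1 : ℤ), -1], (n : ℤ) ≡ e [ZMOD (13 : ℕ)] →
    e = -1 ∧ n = 12 ∨ e = 1 ∧ n = 27 := by decide +kernel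

set_option synthInstance.maxSize 1024 in
theorem degY : ∀ n : ℕ, n ≤ 75 → n ∣ 5616 → ∀ e ∈ [(1 : ℤ), -1], (n : ℤ) ≡ e * (3 : ℕ) [ZMOD (13 : ℕ)] →
    e = 1 ∧ n = 3 ∨ e = 1 ∧ n = 16 ∨ e = -1 ∧ n = 36 := by decide +kernel

variable {G : Type*} [Group G] [Finite G] [IsSimpleGroup G]

theorem cent13 (hG : Nat.card G = 5616) {x : G} (hx : orderOf x = 13) :
    Nat.card (normalizer ((zpowers x : Subgroup G) : Set G)) = 39 ∧
    (centralizer ((zpowers x : Subgroup G) : Set G)).relIndex (normalizer ((zpowers x : Subgroup G) : Set G)) = 3 := by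
  have hp : Nat.Prime 13 := by norm_num
  obtain ⟨-, h1, -⟩ := sylow_data (m := 432) hp hG (by norm_num) hx
  have h2 := (normalizer ((zpowers x : Subgroup G) : Set G)).card_mul_index
  have h3 := card_mul_relIndex (centralizer_le_normalizer ((zpowers x : Subgroup G) : Set G))
  have h4 := relIndex_dvd hp hx
  have h5 : Nat.card (centralizer ((zpowers x : Subgroup G) : Set G)) = 13 := by
    rw [zpowers_eq_closure, centralizer_closure, S1001.result 13 3 4 hp (by rw [hG]; norm_num) x hx, Nat.card_zpowers, hx]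
  rw [h5] at h3
  rw [← h3, hG] at h2
  rw [← h3]
  generalize (centralizer ((zpowers x : Subgroup G) : Set G)).relIndex _ = e at h2 h4 ⊢
  generalize (normalizer ((zpowers x : Subgroup G) : Set G)).index = n at h1 h2
  have := Nat.le_of_dvd (by norm_num) h4
  interval_cases e <;> omega

theorem exists_chars (hG : Nat.card G = 5616) : ∃ a b θ : IrrCharacter G,
    (∀ g, ¬ 13 ∣ orderOf g → θ.1 g = 1 - a.1 g + b.1 g) ∧ a.1 1 = 12 ∧ b.1 1 = 27 ∧ θ.1 1 = 16 := by
  classical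
  have := Fintype.ofFinite G
  have hp : Nat.Prime 13 := by norm_num
  have := Fact.mk hp
  have hc := commutator_top (G := G) (by rw [hG]; norm_num)
  obtain ⟨M, hM⟩ := exists_isPModular hp
  obtain ⟨x, hx⟩ := exists_prime_orderOf_dvd_card' (G := G) 13 (by rw [hG]; norm_num)
  obtain ⟨P, hP⟩ := (sylow_data (m := 432) hp hG (by norm_num) hx).1.exists_sylow_top
  obtain ⟨X, Y, hB, hXY, hX, hY, ε, δ, h1, hδ, h2, -, h4⟩ := S4441.result 13 M hM (by norm_num) P
    (by rw [hP, Nat.card_zpowers, hx]) 3 (by rw [hP]; exact (cent13 hG hx).2)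
  have h11 : ¬ 13 ∣ orderOf (1 : G) := by simp
  have hd : ∀ χ : IrrCharacter G, charDegree (χ : G → ℂ) ≤ 75 ∧ charDegree (χ : G → ℂ) ∣ 5616 := fun χ => by
    have h5 := sum_degree_sq_le {χ}
    rw [Finset.sum_singleton, hG] at h5
    exact ⟨by nlinarith, hG ▸ irr_degree_dvd χ⟩
  have hone : oneIrr G ∈ X := by
    refine ((hB ▸ oneIrr_mem_principalBlock hM : oneIrr G ∈ X ∪ Y)).resolve_right fun h => ?_
    have h5 := h2 _ h
    rw [coe_oneIrr, charDegree_one_fun] at h5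
    rcases hδ with rfl | rfl <;> exact absurd h5 (by decide)
  have hε1 : ε (oneIrr G) = 1 := by
    obtain ⟨h5, h6, -⟩ := h1 _ hone
    rw [coe_oneIrr, charDegree_one_fun] at h6
    refine h5.resolve_right fun h => ?_
    rw [h] at h6
    exact absurd h6 (by decide)
  have hX' : ∀ χ ∈ X, χ ≠ oneIrr G → ε χ = -1 ∧ charDegree (χ : G → ℂ) = 12 ∨
      ε χ = 1 ∧ charDegree (χ : G → ℂ) = 27 := fun χ hχ hne => by
    obtain ⟨h5, h6, -⟩ := h1 _ hχ
    exact degX _ (hd χ).1 (hd χ).2 (fun h => hne (eq_oneIrr hc h)) _ (by simpa using h5) h6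
  obtain ⟨θ, hθY⟩ : Y.Nonempty := Set.nonempty_of_ncard_ne_zero (by rw [← Nat.card_coe_set_eq, hY]; norm_num)
  have hθ := degY _ (hd θ).1 (hd θ).2 _ (by simpa using hδ) (h2 θ hθY)
  have hXf := Set.toFinite X
  obtain ⟨a, b, hab, hs⟩ := Finset.card_eq_two.1 (show (hXf.toFinset.erase (oneIrr G)).card = 2 by
    rw [Finset.card_erase_of_mem (by simpa using hone), ← Set.ncard_eq_toFinset_card X hXf,
      ← Nat.card_coe_set_eq, hX])
  have hm : ∀ χ ∈ ({a, b} : Finset _), χ ∈ X ∧ χ ≠ oneIrr G := fun χ hχ => by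
    rw [← hs] at hχ
    simpa [and_comm] using hχ
  have hrel : ∀ g, ¬ 13 ∣ orderOf g → δ * θ.1 g = 1 + (ε a * a.1 g + ε b * b.1 g) := fun g hg => by
    rw [h4 θ hθY g hg, finsum_mem_eq_finite_toFinset_sum _ hXf,
      ← Finset.add_sum_erase _ _ (a := oneIrr G) (by simpa using hone), hs, hε1, coe_oneIrr, Finset.sum_pair hab]
    simp
  have h6 := hrel 1 h11
  simp only [← irr_degree_cast] at h6
  have h7 : δ * charDegree θ.1 = 1 + (ε a * charDegree a.1 + ε b * charDegree b.1) := by exact_mod_cast h6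
  have ha := hX' a (hm a (by simp)).1 (hm a (by simp)).2
  have hb := hX' b (hm b (by simp)).1 (hm b (by simp)).2
  have key : δ = 1 ∧ charDegree θ.1 = 16 ∧ (ε a = -1 ∧ ε b = 1 ∧ charDegree a.1 = 12 ∧ charDegree b.1 = 27 ∨
      ε b = -1 ∧ ε a = 1 ∧ charDegree b.1 = 12 ∧ charDegree a.1 = 27) := by
    generalize charDegree a.1 = na, charDegree b.1 = nb, charDegree θ.1 = n, ε a = ea, ε b = eb at ha hb hθ h7 ⊢
    clear * - ha hb hθ h7
    rcases ha with ⟨rfl, rfl⟩ | ⟨rfl, rfl⟩ <;> rcases hb with ⟨rfl, rfl⟩ | ⟨rfl, rfl⟩ <;>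
      rcases hθ with ⟨rfl, rfl⟩ | ⟨rfl, rfl⟩ | ⟨rfl, rfl⟩ <;> revert h7 <;> decide
  obtain ⟨rfl, e0, ⟨e1, e2, e3, e4⟩ | ⟨e1, e2, e3, e4⟩⟩ := key
  · refine ⟨a, b, θ, fun g hg => ?_, by rw [← irr_degree_cast, e3]; rfl, by rw [← irr_degree_cast, e4]; rfl,
      by rw [← irr_degree_cast, e0]; rfl⟩
    have := hrel g hg
    rw [e1, e2] at this
    push_cast at this
    linear_combination this
  · refine ⟨b, a, θ, fun g hg => ?_, by rw [← irr_degree_cast, e3]; rfl, by rw [← irr_degree_cast, e4]; rfl,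
      by rw [← irr_degree_cast, e0]; rfl⟩
    have := hrel g hg
    rw [e1, e2] at this
    push_cast at this
    linear_combination this

theorem not_dvd_mul (hG : Nat.card G = 5616) {s t : G} (hs : orderOf s = 2) (ht : orderOf t = 2) :
    ¬ 13 ∣ orderOf (s * t) := fun ⟨k, hk⟩ => by
  have h0 : k ≠ 0 := fun h => (orderOf_pos (s * t)).ne' (by rw [hk, h])
  have h1 : orderOf ((s * t) ^ k) = 13 := by
    rw [orderOf_pow' _ h0, hk, Nat.gcd_eq_right (Dvd.intro_left _ rfl), Nat.mul_div_cancel _ (Nat.pos_of_ne_zero h0)]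
  have s1 : s⁻¹ = s := inv_eq_of_mul_eq_one_right (by rw [← sq, ← hs, pow_orderOf_eq_one])
  have t1 : t⁻¹ = t := inv_eq_of_mul_eq_one_right (by rw [← sq, ← ht, pow_orderOf_eq_one])
  have h2 : t ∈ normalizer ((zpowers ((s * t) ^ k) : Subgroup G) : Set G) := mem_normalizer_fintype (by
    rintro _ ⟨j, rfl⟩
    rw [← conj_zpow, ← conj_pow, show t * (s * t) * t⁻¹ = (s * t)⁻¹ by
      rw [mul_inv_rev, s1, ← mul_assoc, mul_inv_cancel_right, t1]]
    rw [inv_pow]
    exact zpow_mem (inv_mem (mem_zpowers _)) j)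
  have h3 := Subgroup.orderOf_dvd_natCard _ h2
  rw [(cent13 hG h1).1, ht] at h3
  norm_num at h3

theorem exists_vals (hG : Nat.card G = 5616) : ∃ a b : IrrCharacter G, a.1 1 = 12 ∧ b.1 1 = 27 ∧
    ∀ t, orderOf t = 2 → a.1 t = 4 ∧ b.1 t = 3 := by
  have hc := commutator_top (G := G) (by rw [hG]; norm_num)
  obtain ⟨a, b, θ, h, ha, hb, hθ⟩ := exists_chars hG
  refine ⟨a, b, ha, hb, fun t ht => ?_⟩
  have := Fintype.ofFinite G
  have h1 := isIrr_sum_conj_mul θ.2 t t
  rw [Finset.sum_congr rfl fun g _ => h _ (not_dvd_mul hG ((MulAut.conj g).orderOf_eq t ▸ ht) ht)] at h1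
  simp only [Finset.sum_add_distrib, Finset.sum_sub_distrib, isIrr_sum_conj_mul a.2, isIrr_sum_conj_mul b.2,
    Finset.sum_const, Finset.card_univ, ← Nat.card_eq_fintype_card, hG, ha, hb, hθ, nsmul_eq_mul] at h1
  have h2 := vanish_of_dvd (χ := θ) (k := 4) (n := 16) Nat.prime_two (by rw [hG]; norm_num) hθ (by norm_num) t ht.symm.dvd
  have h3 := h t (by rw [ht]; norm_num)
  obtain ⟨k, k1, k2⟩ := inv_val hc (irr_isChar b) (n := 27) hb (ht ▸ pow_orderOf_eq_one t)
  have h4 : a.1 t = 1 + b.1 t := by linear_combination h3 - h2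
  rw [h2, h4, k2] at h1
  have h5 : (k : ℤ) * (5 * k - 72) + 252 = 0 := by
    apply Int.cast_injective (α := ℂ)
    push_cast at h1 ⊢
    linear_combination (-1 / 832) * h1
  have h6 : k = 6 := by
    have : k ≤ 13 := by omega
    interval_cases k <;> omega
  rw [h4, k2, h6]
  norm_num

theorem card_cent_dvd (hG : Nat.card G = 5616) {t : G} (ht : orderOf t = 2) :
    Nat.card (centralizer ({t} : Set G)) ∣ 48 := by
  have h9 : ¬ 13 ∣ Nat.card (centralizer ({t} : Set G)) := fun h => by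
    obtain ⟨y, hy⟩ := exists_prime_orderOf_dvd_card' (hp := ⟨by norm_num⟩) 13 h
    rw [← orderOf_coe] at hy
    have h1 : t ∈ zpowers (y : G) := S1001.result 13 3 4 (by norm_num) (by rw [hG]; norm_num) _ hy ▸
      mem_cent_iff.2 (mem_cent_iff.1 y.2).symm
    have := orderOf_dvd_of_mem_zpowers h1
    rw [ht, hy] at this
    norm_num at this
  have h10 : ¬ 3 ^ 2 ∣ Nat.card (centralizer ({t} : Set G)) := fun h => by
    have := Fact.mk Nat.prime_three
    obtain ⟨R, hR⟩ := Sylow.exists_subgroup_card_pow_prime 3 h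
    obtain ⟨_, ψ, -, h1, h2⟩ := exists_vals hG
    have := dvd_of_vanish (irr_isChar ψ) Nat.prime_three (by norm_num)
      (vanish_of_dvd (k := 3) (n := 27) Nat.prime_three (by rw [hG]; norm_num) h1 (by norm_num)) ht
      (R := R.map (Subgroup.subtype _)) ((IsPGroup.of_card hR).map _) (by
        rintro _ ⟨r, -, rfl⟩
        exact (mem_cent_iff.1 r.2).symm) (m := 30) (by rw [h1, (h2 t ht).2]; norm_num)
    rw [card_map_of_injective (subtype_injective _), hR] at this
    norm_num at this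
  have h11 : Nat.card (centralizer ({t} : Set G)) ∣ 13 * 432 := (card_subgroup_dvd_card _).trans (by rw [hG])
  have h12 := ((Nat.Prime.coprime_iff_not_dvd (by norm_num)).2 h9).symm.dvd_of_dvd_mul_left h11
  exact (by decide +kernel : ∀ n ≤ 432, n ∣ 432 → ¬ 3 ^ 2 ∣ n → n ∣ 48) _ (Nat.le_of_dvd (by norm_num) h12) h12 h10

theorem card_dvd_eight (hG : Nat.card G = 5616) (A : Subgroup G) (hA : ∀ a ∈ A, a ^ 2 = 1) : Nat.card A ∣ 8 := by
  classical
  obtain ⟨χ, _, h1, -, h2⟩ := exists_vals hG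
  have := Fintype.ofFinite A
  obtain ⟨n, hn⟩ := exists_sum_eq (isChar_res A (irr_isChar χ))
  rw [← Finset.add_sum_erase _ _ (Finset.mem_univ 1), Finset.sum_congr rfl (g := fun _ => 4)
    (fun (a : A) ha => (h2 _ (orderOf_eq_prime (hA a a.2) fun h => Finset.ne_of_mem_erase ha (Subtype.ext h))).1),
    Finset.sum_const, Finset.card_erase_of_mem (Finset.mem_univ _), Finset.card_univ,
    ← Nat.card_eq_fintype_card, coe_one, h1, nsmul_eq_mul, Nat.cast_pred Nat.card_pos] at hn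
  have h3 : Nat.card A * n = 8 + Nat.card A * 4 := by
    have : ((Nat.card A * n : ℕ) : ℂ) = (8 + Nat.card A * 4 : ℕ) := by push_cast; linear_combination -hn
    exact_mod_cast this
  exact (Nat.dvd_add_left (dvd_mul_right _ 4)).1 (h3 ▸ dvd_mul_right _ n)

end Cfsg.Agent.Gl23.O56
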