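import Mathlib
import Cfsg.Prelude.Def_Transfer
import Cfsg.Prelude.Def_Solvable

/-!
Automorphisms of the Sylow 2-subgroup of a Suzuki group.
-/

set_option autoImplicit false
set_option linter.unusedSectionVars false

namespace Cfsg.Agent.Gl23.SA

variable {F : Type*} [Field F] [Finite F] [CharP F 2]

theorem tw0 : (2 : F) = 0 := CharTwo.two_eq_zero

instance finAut : Finite (RingAut F) := Finite.of_injective _ DFunLike.coe_injective

noncomputable instance ftAut : Fintype (RingAut F) := Fintype.ofFinite _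

theorem indep1 (c : RingAut F → F) (h : ∀ x, ∑ ρ, c ρ * ρ x = 0) (ρ : RingAut F) : c ρ = 0 := by
  have := (linearIndependent_monoidHom F F).comp (fun ρ : RingAut F => (ρ : F →* F))
    fun _ _ e => RingEquiv.ext fun x => DFunLike.congr_fun e x
  exact Fintype.linearIndependent_iff.1 this c (funext fun x => by simpa using h x) ρ

theorem indep2 (d : RingAut F → RingAut F → F) (h : ∀ x y, ∑ ρ, ∑ τ, d ρ τ * (ρ x * τ y) = 0)
    (ρ τ : RingAut F) : d ρ τ = 0 := by
  refine indep1 (d ρ) (fun y => indep1 (fun ρ => ∑ τ, d ρ τ * τ y) (fun x => ?_) ρ) τ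
  rw [← h x y]
  refine Finset.sum_congr rfl fun ρ _ => ?_
  rw [Finset.sum_mul]
  exact Finset.sum_congr rfl fun τ _ => by ring

theorem rank_eq {n : ℕ} (hF : Nat.card F = 2 ^ n) [Algebra (ZMod 2) F] : Module.finrank (ZMod 2) F = n := by
  have : Fact (Nat.Prime 2) := ⟨Nat.prime_two⟩
  have := Module.natCard_eq_pow_finrank (K := ZMod 2) (V := F)
  rw [hF, Nat.card_zmod] at this
  exact (Nat.pow_right_injective le_rfl this).symm

theorem card_end {n : ℕ} (hF : Nat.card F = 2 ^ n) : Nat.card (F →+ F) = 2 ^ (n ^ 2) := by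
  have : Fact (Nat.Prime 2) := ⟨Nat.prime_two⟩
  let := ZMod.algebra F 2
  have : Finite (F →ₗ[ZMod 2] F) := Finite.of_injective _ DFunLike.coe_injective
  rw [Nat.card_congr (AddMonoidHom.toZModLinearMapEquiv 2).toEquiv,
    Module.natCard_eq_pow_finrank (K := ZMod 2), Module.finrank_linearMap, rank_eq hF, Nat.card_zmod, sq]

theorem card_ringAut {n : ℕ} (hF : Nat.card F = 2 ^ n) : Nat.card (RingAut F) = n := by
  have : Fact (Nat.Prime 2) := ⟨Nat.prime_two⟩
  let := ZMod.algebra F 2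
  rw [← rank_eq hF, ← IsGalois.card_aut_eq_finrank]
  exact Nat.card_congr
    { toFun := fun ρ => AlgEquiv.ofRingEquiv (f := ρ) fun x =>
        DFunLike.congr_fun (Subsingleton.elim ((ρ : F →+* F).comp (algebraMap (ZMod 2) F))
          (algebraMap (ZMod 2) F)) x
      invFun := fun ρ => ρ.toRingEquiv
      left_inv := fun _ => rfl
      right_inv := fun _ => rfl }

theorem lin_repr {n : ℕ} (hF : Nat.card F = 2 ^ n) (α : F →+ F) :
    ∃ c : RingAut F → F, ∀ x, α x = ∑ ρ, c ρ * ρ x := by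
  let Φ : (RingAut F → F) → (F →+ F) := fun c => AddMonoidHom.mk' (fun x => ∑ ρ, c ρ * ρ x) fun x y => by
    simp only [map_add, mul_add, Finset.sum_add_distrib]
  have hinj : Function.Injective Φ := fun c c' e => funext fun ρ => sub_eq_zero.1
    (indep1 (fun ρ => c ρ - c' ρ) (fun x => by
      simp only [sub_mul, Finset.sum_sub_distrib]
      exact sub_eq_zero.2 (DFunLike.congr_fun e x)) ρ)
  have : Finite (F →+ F) := Finite.of_injective _ DFunLike.coe_injective
  obtain ⟨c, rfl⟩ := (hinj.bijective_of_nat_card_le (by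
    rw [card_end hF, Nat.card_fun, card_ringAut hF, hF, ← pow_mul, sq])).2 α
  exact ⟨c, fun _ => rfl⟩

/-- the twisting automorphism -/
structure Tw (θ : RingAut F) (n : ℕ) : Prop where
  card : Nat.card F = 2 ^ n
  sq : ∀ x, θ (θ x) = x ^ 2
  comm : ∀ (ρ : RingAut F) x, ρ (θ x) = θ (ρ x)
  big : ∃ x : F, x ^ 4 ≠ x

variable {θ : RingAut F} {n : ℕ}

theorem Tw.semi (h : Tw θ n) (α β : F →+ F) (h1 : α 1 ≠ 0) (hN : ∀ x, θ (α x) * α x = β (θ x * x)) :
    ∃ (c : Fˣ) (ρ : RingAut F), ∀ x, α x = c * ρ x := by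
  classical
  obtain ⟨a, ha⟩ := lin_repr h.card α
  obtain ⟨b, hb⟩ := lin_repr h.card β
  let d : RingAut F → RingAut F → F := fun ρ τ => θ (a (θ⁻¹ * ρ)) * a τ - if ρ = τ * θ then b τ else 0
  have hD : ∀ x y, θ (α x) * α y - β (θ x * y) = ∑ ρ, ∑ τ, d ρ τ * (ρ x * τ y) := by
    intro x y
    simp only [d, sub_mul, Finset.sum_sub_distrib]
    congr 1
    · rw [ha x, ha y, map_sum, Finset.sum_mul_sum, ← Equiv.sum_comp (Equiv.mulLeft θ⁻¹)]
      refine Finset.sum_congr rfl fun ρ _ => Finset.sum_congr rfl fun τ _ => ?_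
      have : θ ((θ⁻¹ * ρ) x) = ρ x := θ.apply_symm_apply _
      rw [map_mul, Equiv.coe_mulLeft, this]; ring
    · rw [hb, Finset.sum_comm]
      refine Finset.sum_congr rfl fun τ _ => ?_
      simp only [ite_mul, zero_mul, Finset.sum_ite_eq', Finset.mem_univ, if_true, map_mul]
      rfl
  have hS : ∀ ρ τ, d ρ τ + d τ ρ = 0 := by
    refine indep2 _ fun x y => ?_
    simp only [add_mul, Finset.sum_add_distrib]
    rw [Finset.sum_comm (f := fun ρ τ => d τ ρ * (ρ x * τ y))]
    simp only [mul_comm ((_ : RingAut F) x) ((_ : RingAut F) y)]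
    rw [← hD]
    simp only [mul_comm ((_ : RingAut F) y) ((_ : RingAut F) x)]
    rw [← hD]
    have := hN (x + y)
    simp only [map_add, mul_add, add_mul] at this
    linear_combination this - hN x - hN y
  have hd : ∀ ρ, d ρ ρ = 0 := by
    refine indep1 _ fun y => ?_
    obtain ⟨x, rfl⟩ := (bijective_frobenius F 2).2 y
    have e1 := hD x x
    rw [hN, sub_self, ← Finset.sum_product', ← Finset.sum_filter_add_sum_filter_not _ (fun p => p.1 = p.2),
      Finset.sum_involution (s := Finset.filter (fun p => ¬ p.1 = p.2) _) (fun p _ => p.swap)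
        (fun p _ => by
          simp only [Prod.fst_swap, Prod.snd_swap]
          linear_combination (p.1 x * p.2 x) * hS p.1 p.2)
        (fun p hp _ e => (Finset.mem_filter.1 hp).2 (congrArg Prod.snd e))
        (fun p hp => Finset.mem_filter.2 ⟨by simp, fun e => (Finset.mem_filter.1 hp).2 e.symm⟩)
        (fun p _ => rfl), add_zero, Finset.sum_filter, Finset.sum_product] at e1
    simp only [Finset.sum_ite_eq, Finset.mem_univ, if_true] at e1
    rw [e1]
    exact Finset.sum_congr rfl fun ρ _ => by rw [frobenius_def, pow_two, map_mul]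
  obtain ⟨x4, hx4⟩ := h.big
  have hθ1 : ∀ ρ : RingAut F, ρ ≠ ρ * θ := fun ρ e => by
    have e1 : ∀ x, θ x = x := fun x => ρ.injective (DFunLike.congr_fun e x).symm
    have e2 := h.sq x4
    rw [e1, e1] at e2
    exact hx4 (by rw [show 4 = 2 * 2 from rfl, pow_mul, ← e2, ← e2])
  have key : ∀ τ κ, a τ ≠ 0 → a κ ≠ 0 → κ ≠ τ → ∀ x, τ x = κ x ^ 2 := by
    intro τ κ h1 h2 h3
    by_contra h4
    have e1 := hd τ
    have e2 := hS (θ * κ) τ
    simp only [d] at e1 e2
    rw [if_neg (hθ1 τ), sub_zero] at e1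
    have e3 := (mul_eq_zero.1 e1).resolve_right h1
    rw [if_neg fun e => h3 (RingEquiv.ext fun x => θ.injective
      ((DFunLike.congr_fun e x).trans (h.comm τ x))), if_neg fun e => h4 fun x => by
        rw [e, ← h.sq, ← h.comm κ]; rfl, e3, inv_mul_cancel_left] at e2
    simp [h1, h2] at e2
  obtain ⟨τ, hτ⟩ : ∃ τ, a τ ≠ 0 := by
    by_contra hh
    push Not at hh
    exact h1 (by simp [ha, hh])
  refine ⟨Units.mk0 _ hτ, τ, fun x => ?_⟩
  rw [ha, Finset.sum_eq_single τ _ (by simp), Units.val_mk0]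
  intro κ _ hκ
  by_contra h5
  have h6 := left_ne_zero_of_mul h5
  obtain ⟨y, rfl⟩ := τ.surjective x4
  exact hx4 (by rw [show 4 = 2 * 2 from rfl, pow_mul, ← key κ τ h6 hτ hκ.symm, ← key τ κ hτ h6 hκ])

theorem Tw.norm_bij (h : Tw θ n) : Function.Bijective fun x : F => θ x * x := by
  refine Finite.injective_iff_bijective.1 fun x y e => ?_
  by_cases hy : y = 0
  · simpa [hy] using e
  have hy' : θ y ≠ 0 := by simpa using hy
  have e1 : θ (x / y) * (x / y) = 1 := by rw [map_div₀]; field_simp; rw [e, mul_comm]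
  have e2 := congrArg θ e1
  rw [map_mul, h.sq, map_one] at e2
  have e3 : x / y = 1 := by linear_combination e2 - (x / y) * e1
  exact (div_eq_one_iff_eq hy).1 e3

/-- the Suzuki 2-group -/
@[ext] structure SG (θ : RingAut F) where
  /-- the first coordinate -/
  a : F
  /-- the second coordinate -/
  l : F

instance instGroup : Group (SG θ) where
  mul x y := ⟨x.a + y.a, x.l + y.l + θ x.a * y.a⟩
  one := ⟨0, 0⟩
  inv x := ⟨-x.a, θ x.a * x.a - x.l⟩
  mul_assoc x y z := SG.ext (add_assoc _ _ _) (by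
    change x.l + y.l + θ x.a * y.a + z.l + θ (x.a + y.a) * z.a =
      x.l + (y.l + z.l + θ y.a * z.a) + θ x.a * (y.a + z.a)
    rw [map_add]; ring)
  one_mul x := SG.ext (zero_add _) (by change 0 + x.l + θ 0 * x.a = x.l; simp)
  mul_one x := SG.ext (add_zero _) (by change x.l + 0 + θ x.a * 0 = x.l; simp)
  inv_mul_cancel x := SG.ext (neg_add_cancel _) (by
    change θ x.a * x.a - x.l + x.l + θ (-x.a) * x.a = 0
    rw [map_neg]; ring)

@[simp] theorem mul_a (x y : SG θ) : (x * y).a = x.a + y.a := rfl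
@[simp] theorem mul_l (x y : SG θ) : (x * y).l = x.l + y.l + θ x.a * y.a := rfl
@[simp] theorem one_a : (1 : SG θ).a = 0 := rfl
@[simp] theorem one_l : (1 : SG θ).l = 0 := rfl
@[simp] theorem inv_a (x : SG θ) : (x⁻¹).a = -x.a := rfl
@[simp] theorem inv_l (x : SG θ) : (x⁻¹).l = θ x.a * x.a - x.l := rfl

theorem sq_a (x : SG θ) : (x * x).a = 0 := by simp [CharTwo.add_self_eq_zero]

theorem sq_l (x : SG θ) : (x * x).l = θ x.a * x.a := by simp [CharTwo.add_self_eq_zero]

theorem sq_iff (x : SG θ) : x * x = 1 ↔ x.a = 0 := by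
  rw [SG.ext_iff, sq_a, sq_l]; simp

theorem map_a0 (φ : MulAut (SG θ)) {x : SG θ} : (φ x).a = 0 ↔ x.a = 0 := by
  rw [← sq_iff, ← sq_iff, ← map_mul, map_eq_one_iff _ φ.injective]

theorem map_a_congr (φ : MulAut (SG θ)) {x y : SG θ} (e : x.a = y.a) : (φ x).a = (φ y).a := by
  have : (x⁻¹ * y).a = 0 := by simp [e]
  rw [← map_a0 φ, map_mul, map_inv, mul_a, inv_a] at this
  linear_combination -this

/-- the induced map on the quotient by the centre -/
def al (φ : MulAut (SG θ)) : F →+ F :=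
  AddMonoidHom.mk' (fun a => (φ ⟨a, 0⟩).a) fun a b => by
    rw [← mul_a, ← map_mul]
    exact map_a_congr φ rfl

theorem al_a (φ : MulAut (SG θ)) (x : SG θ) : (φ x).a = al φ x.a := map_a_congr φ rfl

theorem al_mul (φ ψ : MulAut (SG θ)) (a : F) : al (φ * ψ) a = al φ (al ψ a) := al_a φ (ψ ⟨a, 0⟩)

theorem al_one (a : F) : al (1 : MulAut (SG θ)) a = a := rfl

theorem al_inj (φ : MulAut (SG θ)) : Function.Injective (al φ) := fun a b e => by
  have := congrArg (al φ⁻¹) e
  rwa [← al_mul, ← al_mul, inv_mul_cancel, al_one, al_one] at this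

/-- the induced map on the centre -/
def be (φ : MulAut (SG θ)) : F →+ F :=
  AddMonoidHom.mk' (fun l => (φ ⟨0, l⟩).l) fun a b => by
    have : (⟨0, a + b⟩ : SG θ) = ⟨0, a⟩ * ⟨0, b⟩ := SG.ext (by simp) (by simp)
    rw [this, map_mul, mul_l, (map_a0 φ (x := ⟨0, b⟩)).2 rfl]; simp

theorem be_l (φ : MulAut (SG θ)) {x : SG θ} (hx : x.a = 0) : (φ x).l = be φ x.l :=
  congrArg (fun y => (φ y).l) (SG.ext hx rfl : x = ⟨0, x.l⟩)

theorem be_norm (φ : MulAut (SG θ)) (a : F) : θ (al φ a) * al φ a = be φ (θ a * a) := by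
  have := be_l φ (sq_a ⟨a, 0⟩)
  rwa [map_mul, sq_l, sq_l] at this

theorem Tw.al_semi (h : Tw θ n) (φ : MulAut (SG θ)) :
    ∃ (c : Fˣ) (ρ : RingAut F), ∀ a, al φ a = c * ρ a :=
  h.semi _ _ (fun e => one_ne_zero (al_inj φ (e.trans (map_zero _).symm))) (be_norm φ)

/-- field automorphisms -/
def fr (h : Tw θ n) (ρ : RingAut F) : MulAut (SG θ) where
  toFun x := ⟨ρ x.a, ρ x.l⟩
  invFun x := ⟨ρ.symm x.a, ρ.symm x.l⟩
  left_inv x := SG.ext (by simp) (by simp)
  right_inv x := SG.ext (by simp) (by simp)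
  map_mul' x y := SG.ext (by simp) (by simp [h.comm])

/-- diagonal automorphisms -/
def dg (θ : RingAut F) (s : Fˣ) : MulAut (SG θ) where
  toFun x := ⟨s * x.a, θ s * s * x.l⟩
  invFun x := ⟨(s⁻¹ : Fˣ) * x.a, θ (s⁻¹ : Fˣ) * (s⁻¹ : Fˣ) * x.l⟩
  left_inv x := SG.ext (by simp) (by simp; field_simp)
  right_inv x := SG.ext (by simp) (by simp; field_simp)
  map_mul' x y := SG.ext (by simp [mul_add]) (by simp; ring)

/-- central automorphisms -/
def ce (θ : RingAut F) (f : F →+ F) : MulAut (SG θ) where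
  toFun x := ⟨x.a, x.l + f x.a⟩
  invFun x := ⟨x.a, x.l + f x.a⟩
  left_inv x := SG.ext rfl (by simp [add_assoc, CharTwo.add_self_eq_zero])
  right_inv x := SG.ext rfl (by simp [add_assoc, CharTwo.add_self_eq_zero])
  map_mul' x y := SG.ext rfl (by simp; ring)

theorem ce_a (f : F →+ F) (x : SG θ) : (ce θ f x).a = x.a := rfl
theorem ce_l (f : F →+ F) (x : SG θ) : (ce θ f x).l = x.l + f x.a := rfl

theorem Tw.exists_ce (h : Tw θ n) (φ : MulAut (SG θ)) (hφ : ∀ a, al φ a = a) : ∃ f, φ = ce θ f := by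
  have ha : ∀ x, (φ x).a = x.a := fun x => by rw [al_a, hφ]
  have hz : ∀ x : SG θ, x.a = 0 → φ x = x := fun x hx => by
    obtain ⟨a, e⟩ := h.norm_bij.2 x.l
    exact SG.ext (ha x) (by rw [be_l φ hx, ← e, ← be_norm, hφ])
  have hd : ∀ x y : SG θ, x.a = y.a → (φ x).l - x.l = (φ y).l - y.l := fun x y e => by
    have e1 : (x⁻¹ * y).a = 0 := by simp [e]
    have e2 := congrArg SG.l (hz _ e1)
    rw [map_mul, map_inv] at e2
    simp only [mul_l, inv_l, inv_a, ha] at e2
    linear_combination - e2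
  refine ⟨AddMonoidHom.mk' (fun a => (φ ⟨a, 0⟩).l) fun a b => ?_, MulEquiv.ext fun x => SG.ext (ha x) ?_⟩
  · have := hd ⟨a + b, 0⟩ (⟨a, 0⟩ * ⟨b, 0⟩) rfl
    rw [map_mul, mul_l, mul_l, ha, ha] at this
    linear_combination this
  · change _ = x.l + (φ ⟨x.a, 0⟩).l
    linear_combination hd x ⟨x.a, 0⟩ rfl

theorem ce_inj : Function.Injective (ce θ) := fun f g e => by
  ext a
  have := congrArg (fun φ : MulAut (SG θ) => (φ ⟨a, 0⟩).l) e
  simpa [ce_l] using this

/-- the action on the quotient by the centre -/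
def pi (θ : RingAut F) : MulAut (SG θ) →* Function.End F where
  toFun φ := fun a => al φ a
  map_one' := funext al_one
  map_mul' φ ψ := funext (al_mul φ ψ)

theorem mem_ker {φ : MulAut (SG θ)} : φ ∈ (pi θ).ker ↔ ∀ a, al φ a = a :=
  ⟨fun e a => congrFun e a, fun e => funext e⟩

theorem al_ce (f : F →+ F) (a : F) : al (ce θ f) a = a := rfl

theorem al_dg (c : Fˣ) (a : F) : al (dg θ c) a = c * a := rfl

theorem al_fr (h : Tw θ n) (ρ : RingAut F) (a : F) : al (fr h ρ) a = ρ a := rfl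

theorem Tw.card_ker (h : Tw θ n) : Nat.card (pi θ).ker = Nat.card (F →+ F) :=
  (Nat.card_congr (Equiv.ofBijective (fun f => (⟨ce θ f, mem_ker.2 (al_ce f)⟩ : (pi θ).ker))
    ⟨fun _ _ e => ce_inj (congrArg Subtype.val e), fun φ =>
      (h.exists_ce φ.1 (mem_ker.1 φ.2)).imp fun _ e => Subtype.ext e.symm⟩)).symm

theorem Tw.card_aut (h : Tw θ n) : Nat.card (MulAut (SG θ)) =
    Nat.card (F →+ F) * (Nat.card (RingAut F) * Nat.card Fˣ) := by
  rw [← Nat.card_prod, ← Nat.card_prod]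
  refine (Nat.card_congr (Equiv.ofBijective
    (fun p : (F →+ F) × RingAut F × Fˣ => ce θ p.1 * (dg θ p.2.2 * fr h p.2.1)) ⟨?_, ?_⟩)).symm
  · rintro ⟨f, ρ, c⟩ ⟨f', ρ', c'⟩ e
    have e1 : ∀ a, (c : F) * ρ a = c' * ρ' a := fun a => by
      have := congrArg (fun φ => al φ a) e
      simpa only [al_mul, al_ce, al_dg, al_fr] using this
    have e2 : c = c' := Units.ext (by simpa using e1 1)
    subst e2
    have e3 : ρ = ρ' := RingEquiv.ext fun a => mul_left_cancel₀ c.ne_zero (e1 a)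
    subst e3
    exact Prod.ext (ce_inj (mul_right_cancel e)) rfl
  · intro φ
    obtain ⟨c, ρ, e⟩ := h.al_semi φ
    obtain ⟨f, hf⟩ := h.exists_ce (φ * (dg θ c * fr h ρ)⁻¹) fun a => by
      rw [al_mul, e, ← al_fr h, ← al_dg (θ := θ), ← al_mul, ← al_mul, mul_inv_cancel, al_one]
    exact ⟨⟨f, ρ, c⟩, by simp only [← hf, inv_mul_cancel_right]⟩

theorem Tw.ker_elem (h : Tw θ n) : IsElementaryAbelian 2 (pi θ).ker := by
  refine ⟨⟨⟨fun x y => Subtype.ext ?_⟩⟩, fun x hx => ?_⟩
  · obtain ⟨f, hf⟩ := h.exists_ce x.1 (mem_ker.1 x.2)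
    obtain ⟨g, hg⟩ := h.exists_ce y.1 (mem_ker.1 y.2)
    rw [Subgroup.coe_mul, Subgroup.coe_mul, hf, hg]
    exact MulEquiv.ext fun z => SG.ext rfl (by simp only [MulAut.mul_apply, ce_l, ce_a]; ring)
  · obtain ⟨f, rfl⟩ := h.exists_ce x (mem_ker.1 hx)
    rw [pow_two]
    exact MulEquiv.ext fun z => (ce θ f).left_inv z

theorem al_pow {φ : MulAut (SG θ)} {c : F} (e : ∀ a, al φ a = c * a) (m : ℕ) (a : F) :
    al (φ ^ m) a = c ^ m * a := by
  induction m with
  | zero => rw [pow_zero, al_one, pow_zero, one_mul]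
  | succ m ih => rw [pow_succ', al_mul, ih, e, pow_succ', mul_assoc]

theorem Tw.pCore_eq (h : Tw θ n) : pCore 2 (MulAut (SG θ)) = (pi θ).ker := by
  refine le_antisymm (sSup_le ?_) (le_sSup ⟨inferInstance, fun x => ⟨1, Subtype.ext ?_⟩⟩)
  · rintro N ⟨hN, hp⟩ φ hφ
    have key : ∀ ψ ∈ N, ∀ c : F, (∀ a, al ψ a = c * a) → c = 1 := fun ψ hψ c e => by
      obtain ⟨k, hk⟩ := hp ⟨ψ, hψ⟩
      have := al_pow e (2 ^ k) 1
      rw [show ψ ^ 2 ^ k = 1 from congrArg Subtype.val hk, al_one, mul_one] at this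
      exact (iterateFrobenius F 2 k).injective (by rw [iterateFrobenius_def, ← this, map_one])
    obtain ⟨c, ρ, e⟩ := h.al_semi φ
    have h1 : ∀ a, ρ a = a := fun a => by
      by_cases ha : a = 0
      · simp [ha]
      have := key _ (mul_mem hφ (hN.conj_mem _ (inv_mem hφ) (dg θ (Units.mk0 a ha))))
        (a⁻¹ * ρ a) fun b => by
          obtain ⟨b, rfl⟩ := (Finite.injective_iff_surjective.1
            (al_inj (dg θ (Units.mk0 a ha) * φ))) b
          rw [← al_mul, show φ * (dg θ (Units.mk0 a ha) * φ⁻¹ * (dg θ (Units.mk0 a ha))⁻¹) *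
            (dg θ (Units.mk0 a ha) * φ) = φ * dg θ (Units.mk0 a ha) by group,
            al_mul, al_mul, al_dg, al_dg, e, e, map_mul, Units.val_mk0]
          field_simp
      field_simp at this
      exact this
    refine mem_ker.2 fun a => ?_
    rw [e, h1, key φ hφ c fun a => by rw [e, h1], one_mul]
  · simpa using h.ker_elem.2 x.1 x.2

theorem Tw.main (h : Tw θ n) {S : Type*} [Group S] (e : S ≃* SG θ) :
    IsElementaryAbelian 2 (pCore 2 (MulAut S)) ∧ Nat.card (pCore 2 (MulAut S)) = 2 ^ (n ^ 2) ∧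
      Nat.card (MulAut S) = 2 ^ (n ^ 2) * (n * (2 ^ n - 1)) := by
  let E := MulAut.congr e
  have hc : pCore 2 (MulAut S) = (pi θ).ker.comap E.toMonoidHom := by
    refine le_antisymm (sSup_le ?_) (le_sSup ⟨inferInstance, ?_⟩)
    · rintro N ⟨hN, hp⟩
      rw [← Subgroup.map_le_iff_le_comap, ← h.pCore_eq]
      exact le_sSup ⟨hN.map _ E.surjective, hp.map _⟩
    · exact IsPGroup.comap_of_injective (fun x => ⟨1, Subtype.ext (by
        simpa using h.ker_elem.2 x.1 x.2)⟩) _ E.injective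
  rw [hc]
  refine ⟨⟨⟨⟨fun x y => Subtype.ext (E.injective ?_)⟩⟩, fun x hx => E.injective ?_⟩, ?_, ?_⟩
  · have := congrArg Subtype.val (h.ker_elem.1.is_comm.comm ⟨E x.1, x.2⟩ ⟨E y.1, y.2⟩)
    rw [Subgroup.coe_mul, Subgroup.coe_mul, map_mul, map_mul]
    exact this
  · rw [map_pow, map_one]; exact h.ker_elem.2 _ hx
  · rw [← card_end h.card, ← h.card_ker]
    exact Nat.card_congr (E.toEquiv.subtypeEquiv fun _ => Iff.rfl)
  · rw [Nat.card_congr E.toEquiv, h.card_aut, card_end h.card, card_ringAut h.card, Nat.card_units, h.card]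

end Cfsg.Agent.Gl23.SA
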